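import Mathlib
import Cfsg.Prelude.Def_FusionSystem
import Cfsg.Agent.Lib.Helper87.FSBasic
import Cfsg.Agent.Lib.Helper87.FSSat
import Cfsg.Agent.Lib.Helper87.FSNormal
set_option autoImplicit false
open Cfsg
open Cfsg.Agent.Lib.Helper87.FSBasic
open Cfsg.Agent.Lib.Helper87.FSSat
open Cfsg.Agent.Lib.Helper87.FSNormal

/-! Further normality criteria. -/

namespace Cfsg.Agent.Lib.Helper87.FSNormal2

variable {Ω : Type*} [Group Ω] {S : Subgroup Ω}

/-- If every characteristic subgroup of `R ≤ S` is strongly closed in the saturated system `F`,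
then `R` is normal in `F`. -/
theorem isNormal_of_char [Finite S] {p : ℕ} [Fact p.Prime] (hS : IsPGroup p S)
    (F : FusionSystem S) (hF : F.IsSaturated p) (R : Subgroup Ω) (hRS : R ≤ S)
    (hchar : ∀ U : Subgroup R, U.Characteristic → F.StronglyClosed (U.map R.subtype)) :
    F.IsNormal R := by
  have hfin : Finite R := finite_of_le hRS
  have hRp : IsPGroup p R := hS.to_le hRS
  have hnil : Group.IsNilpotent R := hRp.isNilpotent
  have hR : F.StronglyClosed R := by
    have h := hchar ⊤ inferInstance
    rwa [← MonoidHom.range_eq_map, Subgroup.range_subtype] at h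
  refine isNormal_of_chain hS F hF R hR (Group.nilpotencyClass R)
    (fun j => (Subgroup.upperCentralSeries R j).map R.subtype) ?_ ?_ ?_ ?_ ?_ ?_
  · show (Subgroup.upperCentralSeries R 0).map R.subtype = ⊥
    rw [Subgroup.upperCentralSeries_zero, Subgroup.map_bot]
  · show (Subgroup.upperCentralSeries R (Group.nilpotencyClass R)).map R.subtype = R
    rw [Subgroup.upperCentralSeries_nilpotencyClass, ← MonoidHom.range_eq_map,
      Subgroup.range_subtype]
  · intro j _
    exact le_normalizer_of_stronglyClosed F (hchar _ inferInstance)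
  · rintro j _ _ ⟨u, -, rfl⟩
    exact u.2
  · intro j _
    rw [Subgroup.commutator_le]
    rintro _ ⟨z, hz, rfl⟩ g₂ hg₂
    have hz' : z ∈ Subgroup.upperCentralSeries R (j + 1) := hz
    rw [Subgroup.mem_upperCentralSeries_succ_iff] at hz'
    exact ⟨_, hz' ⟨g₂, hg₂⟩, rfl⟩
  · intro j _ Y hY φ hφ _ x hx
    exact stronglyClosed_maps F (hchar _ inferInstance) hφ x hx

end Cfsg.Agent.Lib.Helper87.FSNormal2
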