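import Mathlib
import Cfsg.Agent.Lib.Helper83.MclStmt

set_option autoImplicit false

/-! Piece SLCORE of S5075 (McLaughlin): a connected transvection system in which some centre has
two independent axes is the system of all transvections of `cen Q` trivial on `ax Q`. -/

namespace Cfsg.Agent.Lib.Helper87.MclSLCORE

open Cfsg.Agent.Lib.Helper83.MclStmt

universe u v

variable {F : Type u} [Field F] {V : Type v} [AddCommGroup V] [Module F V]
variable {Q : Module.Dual F V → V → Prop}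

/-- `L(v)`: the functionals `φ` with `Q φ v`. -/
def Lsub (hQ : Sys Q) (v : V) : Submodule F (Module.Dual F V) where
  carrier := {φ | Q φ v}
  add_mem' := fun {a b} ha hb => hQ.add_left a b v ha hb
  zero_mem' := hQ.zero_left v
  smul_mem' := fun c a h => hQ.smul_left c a v h

theorem mem_Lsub (hQ : Sys Q) (v : V) (φ : Module.Dual F V) : φ ∈ Lsub hQ v ↔ Q φ v := Iff.rfl

/-- `v` is a centre. -/
def IsCen (Q : Module.Dual F V → V → Prop) (v : V) : Prop := v ≠ 0 ∧ ∃ φ, φ ≠ 0 ∧ Q φ v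

/-- `v` is opposite to `w`. -/
def Opp (Q : Module.Dual F V → V → Prop) (v w : V) : Prop := ∃ φ, Q φ v ∧ φ w ≠ 0

theorem le_sup_span {A B : Submodule F (Module.Dual F V)} {φ : Module.Dual F V} {w : V}
    (hφA : φ ∈ A) (hφw : φ w ≠ 0) (h : ∀ ξ ∈ A, ξ w = 0 → ξ ∈ B) :
    A ≤ B ⊔ Submodule.span F {φ} := by
  intro ξ hξ
  have h1 : ξ - (ξ w / φ w) • φ ∈ B := by
    apply h
    · exact A.sub_mem hξ (A.smul_mem _ hφA)
    · rw [LinearMap.sub_apply, LinearMap.smul_apply, smul_eq_mul, div_mul_cancel₀ _ hφw, sub_self]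
  have h2 : ξ = (ξ - (ξ w / φ w) • φ) + (ξ w / φ w) • φ := by abel
  rw [h2]
  exact Submodule.add_mem_sup h1 (Submodule.smul_mem _ _ (Submodule.mem_span_singleton_self φ))

variable [FiniteDimensional F V]

theorem finrank_le_succ {A B : Submodule F (Module.Dual F V)}
    {φ : Module.Dual F V} {w : V}
    (hφA : φ ∈ A) (hφw : φ w ≠ 0) (h : ∀ ξ ∈ A, ξ w = 0 → ξ ∈ B) :
    Module.finrank F A ≤ Module.finrank F B + 1 := by
  have hφ0 : φ ≠ 0 := fun h0 => hφw (by rw [h0]; rfl)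
  calc Module.finrank F A ≤ Module.finrank F ↥(B ⊔ Submodule.span F {φ}) :=
        Submodule.finrank_mono (le_sup_span hφA hφw h)
    _ ≤ Module.finrank F B + Module.finrank F (Submodule.span F {φ}) :=
        Submodule.finrank_add_le_finrank_add_finrank _ _
    _ = Module.finrank F B + 1 := by rw [finrank_span_singleton hφ0]

theorem finrank_L_le (hQ : Sys Q) {φ ψ : Module.Dual F V} {v w : V} (h1 : Q φ v) (h2 : Q ψ w)
    (hφw : φ w ≠ 0) (hψv : ψ v ≠ 0) :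
    Module.finrank F (Lsub hQ v) ≤ Module.finrank F (Lsub hQ w) := by
  have hle : Module.finrank F (Lsub hQ v) ≤
      Module.finrank F ↥(Lsub hQ w ⊓ LinearMap.ker (Module.Dual.eval F V v)) + 1 :=
    finrank_le_succ (φ := φ) (w := w) h1 hφw (fun ξ hξ hξw =>
      ⟨hQ.rule_R' ξ v ψ w hξ h2 hξw hψv, by
        rw [SetLike.mem_coe, LinearMap.mem_ker, Module.Dual.eval_apply]; exact hQ.zero ξ v hξ⟩)
  have hlt : Lsub hQ w ⊓ LinearMap.ker (Module.Dual.eval F V v) < Lsub hQ w := by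
    refine lt_of_le_of_ne inf_le_left (fun h => hψv ?_)
    have h3 : ψ ∈ Lsub hQ w ⊓ LinearMap.ker (Module.Dual.eval F V v) := by rw [h]; exact h2
    have h4 := h3.2
    rwa [SetLike.mem_coe, LinearMap.mem_ker, Module.Dual.eval_apply] at h4
  have := Submodule.finrank_lt_finrank_of_lt hlt
  omega

theorem finrank_L_eq_of_rel (hQ : Sys Q) {a b : Module.Dual F V × V}
    (h : Relation.ReflTransGen (fun a b : Module.Dual F V × V =>
      Q a.1 a.2 ∧ Q b.1 b.2 ∧ a.1 b.2 ≠ 0 ∧ b.1 a.2 ≠ 0) a b) :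
    Module.finrank F (Lsub hQ a.2) = Module.finrank F (Lsub hQ b.2) := by
  induction h with
  | refl => rfl
  | tail _ hbc ih =>
    rw [ih]
    obtain ⟨h1, h2, h3, h4⟩ := hbc
    exact le_antisymm (finrank_L_le hQ h1 h2 h3 h4) (finrank_L_le hQ h2 h1 h4 h3)

section Core

variable (hQ : Sys Q)
  (hdim : ∀ v w, IsCen Q v → IsCen Q w →
    Module.finrank F (Lsub hQ v) = Module.finrank F (Lsub hQ w))

include hdim in
theorem opp_symm {v w : V} (hv : IsCen Q v) (hw : IsCen Q w) (h : Opp Q v w) : Opp Q w v := by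
  obtain ⟨φ, hφ, hφw⟩ := h
  by_contra hcon
  have hcon' : ∀ ψ, Q ψ w → ψ v = 0 := by
    intro ψ hψ
    by_contra h1
    exact hcon ⟨ψ, hψ, h1⟩
  have hle : Lsub hQ w ≤ Lsub hQ v := fun ψ hψ => hQ.rule_R φ v ψ w hφ hψ hφw (hcon' ψ hψ)
  have hlt : Lsub hQ w < Lsub hQ v := by
    refine lt_of_le_of_ne hle ?_
    intro heq
    have : φ ∈ Lsub hQ w := heq ▸ hφ
    exact hφw (hQ.zero φ w this)
  have := Submodule.finrank_lt_finrank_of_lt hlt
  rw [hdim v w hv hw] at this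
  exact lt_irrefl _ this

include hdim in
theorem cen_comb {v w : V} (hv : IsCen Q v) (hw : IsCen Q w) (h : Opp Q v w)
    (a b : F) (hab : a ≠ 0 ∨ b ≠ 0) : IsCen Q (a • v + b • w) := by
  obtain ⟨φ, hφ, hφw⟩ := h
  obtain ⟨ψ, hψ, hψv⟩ := opp_symm hQ hdim hv hw ⟨φ, hφ, hφw⟩
  have hψ' : Q ((-φ w / ψ v) • ψ) w := hQ.smul_left _ ψ w hψ
  have hψ'v : ((-φ w / ψ v) • ψ) v = -φ w := by
    rw [LinearMap.smul_apply, smul_eq_mul, div_mul_cancel₀ _ hψv]
  have hyp := hQ.rule_hyp φ v _ w hφ hψ' hφw hψ'v a b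
  have hφv : φ v = 0 := hQ.zero φ v hφ
  have hψw : ψ w = 0 := hQ.zero ψ w hψ
  refine ⟨?_, a • φ + b • ((-φ w / ψ v) • ψ), ?_, hyp⟩
  · intro h0
    have h1 := congrArg φ h0
    have h2 := congrArg ψ h0
    simp only [map_add, map_smul, smul_eq_mul, hφv, hψw, mul_zero, zero_add, add_zero,
      map_zero] at h1 h2
    rcases hab with ha | hb
    · exact ha ((mul_eq_zero.mp h2).resolve_right hψv)
    · exact hb ((mul_eq_zero.mp h1).resolve_right hφw)
  · intro h0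
    rcases hab with ha | hb
    · have h1 := congrArg (fun f : Module.Dual F V => f w) h0
      simp only [LinearMap.add_apply, LinearMap.smul_apply, smul_eq_mul, hψw, mul_zero,
        add_zero, LinearMap.zero_apply] at h1
      exact ha ((mul_eq_zero.mp h1).resolve_right hφw)
    · have h1 := congrArg (fun f : Module.Dual F V => f v) h0
      simp only [LinearMap.add_apply, LinearMap.smul_apply, smul_eq_mul, hφv, mul_zero,
        zero_add, LinearMap.zero_apply] at h1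
      rw [div_mul_cancel₀ _ hψv] at h1
      rcases mul_eq_zero.mp h1 with h2 | h2
      · exact hb h2
      · exact hφw (neg_eq_zero.mp h2)

include hdim in
theorem common_opp {y u : V} (hy : IsCen Q y) (hu : IsCen Q u) :
    ∃ z, IsCen Q z ∧ Opp Q z y ∧ Opp Q z u := by
  obtain ⟨hy0, η₀, hη₀, hη₀y⟩ := hy
  obtain ⟨hu0, ψ₀, hψ₀, hψ₀u⟩ := hu
  have hconn := hQ.conn η₀ y ψ₀ u hη₀y hη₀ hy0 hψ₀u hψ₀ hu0
  have key : ∀ c : Module.Dual F V × V, Relation.ReflTransGen (fun a b : Module.Dual F V × V =>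
      Q a.1 a.2 ∧ Q b.1 b.2 ∧ a.1 b.2 ≠ 0 ∧ b.1 a.2 ≠ 0) (η₀, y) c →
      ∃ z, IsCen Q z ∧ Opp Q z y ∧ Opp Q z c.2 := by
    intro c hc
    induction hc with
    | refl =>
      obtain ⟨ψ, w, hψw, h1, h2⟩ := hQ.opp η₀ y hη₀y hη₀ hy0
      have hw0 : w ≠ 0 := fun h => h1 (by rw [h, map_zero])
      have hψ0 : ψ ≠ 0 := fun h => h2 (by rw [h]; rfl)
      exact ⟨w, ⟨hw0, ψ, hψ0, hψw⟩, ⟨ψ, hψw, h2⟩, ⟨ψ, hψw, h2⟩⟩
    | @tail b c _ hbc ih =>
      obtain ⟨z, hz, hzy, hzb⟩ := ih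
      obtain ⟨hb, hc, hbc1, hcb1⟩ := hbc
      have hb2 : b.2 ≠ 0 := fun h => hcb1 (by rw [h, map_zero])
      have hc2 : c.2 ≠ 0 := fun h => hbc1 (by rw [h, map_zero])
      have hb1 : b.1 ≠ 0 := fun h => hbc1 (by rw [h]; rfl)
      have hc1 : c.1 ≠ 0 := fun h => hcb1 (by rw [h]; rfl)
      have hcenb : IsCen Q b.2 := ⟨hb2, b.1, hb1, hb⟩
      have hcenc : IsCen Q c.2 := ⟨hc2, c.1, hc1, hc⟩
      have hceny : IsCen Q y := ⟨hy0, η₀, hη₀, hη₀y⟩
      by_cases h1 : Opp Q z c.2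
      · exact ⟨z, hz, hzy, h1⟩
      by_cases h2 : Opp Q b.2 y
      · exact ⟨b.2, hcenb, h2, ⟨b.1, hb, hbc1⟩⟩
      have hcen' : IsCen Q ((1 : F) • z + (1 : F) • b.2) :=
        cen_comb hQ hdim hz hcenb hzb 1 1 (Or.inl one_ne_zero)
      rw [one_smul, one_smul] at hcen'
      refine ⟨z + b.2, hcen', ?_, ?_⟩
      · apply opp_symm hQ hdim hceny hcen'
        obtain ⟨η, hη, hηz⟩ := opp_symm hQ hdim hz hceny hzy
        have hηb : η b.2 = 0 := by
          by_contra hne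
          exact h2 (opp_symm hQ hdim hceny hcenb ⟨η, hη, hne⟩)
        exact ⟨η, hη, by rw [map_add, hηb, add_zero]; exact hηz⟩
      · apply opp_symm hQ hdim hcenc hcen'
        have hcz : c.1 z = 0 := by
          by_contra hne
          exact h1 (opp_symm hQ hdim hcenc hz ⟨c.1, hc, hne⟩)
        exact ⟨c.1, hc, by rw [map_add, hcz, zero_add]; exact hcb1⟩
  exact key _ hconn

variable (hbig : ∀ v, IsCen Q v → 2 ≤ Module.finrank F (Lsub hQ v))

include hbig in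
theorem exists_ne_zero_kill {u : V} (hu : IsCen Q u) (v : V) :
    ∃ ξ, ξ ≠ 0 ∧ Q ξ u ∧ ξ v = 0 := by
  by_contra hcon
  push Not at hcon
  have h2 := hbig u hu
  by_cases hex : ∃ φ, Q φ u ∧ φ v ≠ 0
  · obtain ⟨φ, hφ, hφv⟩ := hex
    have := finrank_le_succ (A := Lsub hQ u) (B := ⊥) (φ := φ) (w := v) hφ hφv
      (fun ξ hξ hξv => by
        by_contra hne
        exact hcon ξ (fun h0 => hne (by rw [h0]; exact Submodule.zero_mem _)) hξ hξv)
    rw [finrank_bot] at this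
    omega
  · push Not at hex
    have hbot : Lsub hQ u = ⊥ := by
      rw [Submodule.eq_bot_iff]
      intro ξ hξ
      by_contra hne
      exact hcon ξ hne hξ (hex ξ hξ)
    rw [hbot, finrank_bot] at h2
    omega

include hdim hbig in
theorem dep_of_not_opp {v w : V} (hv : IsCen Q v) (hw : IsCen Q w) (h : ¬ Opp Q v w) :
    ∃ c : F, w = c • v := by
  by_contra hind
  push Not at hind
  have hvw : ∀ φ, Q φ v → φ w = 0 := by
    intro φ hφ
    by_contra hne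
    exact h ⟨φ, hφ, hne⟩
  obtain ⟨u, hu, huv, huw⟩ := common_opp hQ hdim hv hw
  obtain ⟨ψv, hψv, hψvu⟩ := opp_symm hQ hdim hu hv huv
  obtain ⟨ψw, hψw, hψwu⟩ := opp_symm hQ hdim hu hw huw
  obtain ⟨ξ, hξ0, hξu, hξv⟩ := exists_ne_zero_kill hQ hbig hu v
  have hξQv : Q ξ v := hQ.rule_R' ξ u ψv v hξu hψv hξv hψvu
  have hξw : ξ w = 0 := hvw ξ hξQv
  have hξQw : Q ξ w := hQ.rule_R' ξ u ψw w hξu hψw hξw hψwu
  obtain ⟨η, y, hηy, hξy, hηv⟩ := hQ.opp ξ v hξQv hξ0 hv.1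
  have hy0 : y ≠ 0 := fun h0 => hξy (by rw [h0, map_zero])
  have hη0 : η ≠ 0 := fun h0 => hηv (by rw [h0]; rfl)
  have hy : IsCen Q y := ⟨hy0, η, hη0, hηy⟩
  have hc : ∀ η', Q η' y → η' w = (η w / η v) * η' v := by
    intro η' hη'
    have hζ : Q (η' - (η' v / η v) • η) y :=
      (Lsub hQ y).sub_mem hη' ((Lsub hQ y).smul_mem _ hηy)
    have hζv : (η' - (η' v / η v) • η) v = 0 := by
      rw [LinearMap.sub_apply, LinearMap.smul_apply, smul_eq_mul, div_mul_cancel₀ _ hηv, sub_self]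
    have hζQv : Q (η' - (η' v / η v) • η) v := hQ.rule_R' _ y ξ v hζ hξQv hζv hξy
    have := hvw _ hζQv
    rw [LinearMap.sub_apply, LinearMap.smul_apply, smul_eq_mul] at this
    have h2 : η' w = η' v / η v * η w := sub_eq_zero.mp this
    rw [h2]; field_simp
  obtain ⟨c, hcdef⟩ : ∃ c : F, c = η w / η v := ⟨_, rfl⟩
  rw [← hcdef] at hc
  have hx0 : w - c • v ≠ 0 := fun h0 => hind c (sub_eq_zero.mp h0)
  have hξx : Q ξ (w - c • v) := by
    have := hQ.add_right ξ w ((-c) • v) hξQw (hQ.smul_right (-c) ξ v hξQv)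
    rwa [neg_smul, ← sub_eq_add_neg] at this
  have hx : IsCen Q (w - c • v) := ⟨hx0, ξ, hξ0, hξx⟩
  have hyx : ¬ Opp Q y (w - c • v) := by
    rintro ⟨η', hη', hne⟩
    apply hne
    rw [map_sub, map_smul, smul_eq_mul, hc η' hη', sub_self]
  have hxy : ¬ Opp Q (w - c • v) y := fun h' => hyx (opp_symm hQ hdim hx hy h')
  exact hxy ⟨ξ, hξx, hξy⟩

include hdim hbig in
theorem isCen_of_mem_cen {x : V} (hx : x ∈ cen Q) (hx0 : x ≠ 0) : IsCen Q x := by
  have key : ∀ x ∈ cen Q, x = 0 ∨ IsCen Q x := by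
    intro x hx
    unfold cen at hx
    induction hx using Submodule.span_induction with
    | mem x hx =>
      obtain ⟨φ, hφ, hx0, hQx⟩ := hx
      exact Or.inr ⟨hx0, φ, hφ, hQx⟩
    | zero => exact Or.inl rfl
    | add x y _ _ hx hy =>
      rcases hx with rfl | hx
      · rw [zero_add]; exact hy
      rcases hy with rfl | hy
      · rw [add_zero]; exact Or.inr hx
      by_cases hxy : x + y = 0
      · exact Or.inl hxy
      right
      by_cases hopp : Opp Q x y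
      · have := cen_comb hQ hdim hx hy hopp 1 1 (Or.inl one_ne_zero)
        rwa [one_smul, one_smul] at this
      · obtain ⟨c, hc⟩ := dep_of_not_opp hQ hdim hbig hx hy hopp
        have h1 : x + y = (1 + c) • x := by rw [hc, add_smul, one_smul]
        obtain ⟨hx0, φ, hφ, hQx⟩ := hx
        rw [h1]
        refine ⟨?_, φ, hφ, hQ.smul_right _ φ x hQx⟩
        rw [← h1]; exact hxy
    | smul c x _ hx =>
      rcases hx with rfl | hx
      · left; rw [smul_zero]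
      by_cases hc : c = 0
      · left; rw [hc, zero_smul]
      · right
        obtain ⟨hx0, φ, hφ, hQx⟩ := hx
        exact ⟨smul_ne_zero hc hx0, φ, hφ, hQ.smul_right c φ x hQx⟩
  exact (key x hx).resolve_left hx0

include hdim hbig in
theorem Q_of_cen {v w : V} {φ : Module.Dual F V} (hv : IsCen Q v)
    (hφw : Q φ w) (hφ : φ ≠ 0) (hw : w ≠ 0) (hφv : φ v = 0) : Q φ v := by
  by_cases hopp : Opp Q v w
  · obtain ⟨ψ, hψ, hψw⟩ := hopp
    exact hQ.rule_R ψ v φ w hψ hφw hψw hφv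
  · obtain ⟨c, hc⟩ := dep_of_not_opp hQ hdim hbig hv ⟨hw, φ, hφ, hφw⟩ hopp
    have hc0 : c ≠ 0 := fun h0 => hw (by rw [hc, h0, zero_smul])
    have := hQ.smul_right c⁻¹ φ w hφw
    rwa [hc, smul_smul, inv_mul_cancel₀ hc0, one_smul] at this

include hdim hbig in
theorem common_zero {φ φ' : Module.Dual F V} {w w' : V}
    (h : Q φ w) (hφ : φ ≠ 0) (hw : w ≠ 0) (h' : Q φ' w') (hφ' : φ' ≠ 0) (hw' : w' ≠ 0) :
    ∃ x, IsCen Q x ∧ φ x = 0 ∧ φ' x = 0 := by
  have hcw : IsCen Q w := ⟨hw, φ, hφ, h⟩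
  have hcw' : IsCen Q w' := ⟨hw', φ', hφ', h'⟩
  by_cases h1 : φ' w = 0
  · exact ⟨w, hcw, hQ.zero φ w h, h1⟩
  by_cases h2 : φ w' = 0
  · exact ⟨w', hcw', h2, hQ.zero φ' w' h'⟩
  obtain ⟨ξ, hξ0, hξw, hξw'⟩ := exists_ne_zero_kill hQ hbig hcw w'
  obtain ⟨ψ, u, hψu, hξu, hψw⟩ := hQ.opp ξ w hξw hξ0 hw
  have hu0 : u ≠ 0 := fun h0 => hξu (by rw [h0, map_zero])
  have hψ0 : ψ ≠ 0 := fun h0 => hψw (by rw [h0]; rfl)
  have hmem : ∀ x, IsCen Q x → x ∈ cen Q := fun x hx => by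
    obtain ⟨hx0, φ, hφ, hQx⟩ := hx
    exact Submodule.subset_span ⟨φ, hφ, hx0, hQx⟩
  obtain ⟨x, hxdef⟩ : ∃ x : V, x = (-(φ' u) / φ' w) • w + (-(φ u) / φ w') • w' + u := ⟨_, rfl⟩
  have hxmem : x ∈ cen Q := by
    rw [hxdef]
    exact (cen Q).add_mem ((cen Q).add_mem ((cen Q).smul_mem _ (hmem w hcw))
      ((cen Q).smul_mem _ (hmem w' hcw'))) (hmem u ⟨hu0, ψ, hψ0, hψu⟩)
  have hξx : ξ x = ξ u := by
    rw [hxdef, map_add, map_add, map_smul, map_smul, hQ.zero ξ w hξw, hξw']; simp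
  have hx0 : x ≠ 0 := fun h0 => hξu (by rw [← hξx, h0, map_zero])
  refine ⟨x, isCen_of_mem_cen hQ hdim hbig hxmem hx0, ?_, ?_⟩
  · rw [hxdef, map_add, map_add, map_smul, map_smul, hQ.zero φ w h, smul_eq_mul, smul_eq_mul,
      div_mul_cancel₀ _ h2]; ring
  · rw [hxdef, map_add, map_add, map_smul, map_smul, hQ.zero φ' w' h', smul_eq_mul, smul_eq_mul,
      div_mul_cancel₀ _ h1]; ring

/-- The functionals of the pairs, together with `0`. -/
def Lam : Submodule F (Module.Dual F V) where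
  carrier := {φ | φ = 0 ∨ ∃ w, w ≠ 0 ∧ Q φ w}
  zero_mem' := Or.inl rfl
  add_mem' := by
    intro φ φ' hφ hφ'
    rcases hφ with rfl | ⟨w, hw, hφw⟩
    · rw [zero_add]; exact hφ'
    rcases hφ' with rfl | ⟨w', hw', hφw'⟩
    · rw [add_zero]; exact Or.inr ⟨w, hw, hφw⟩
    by_cases h0 : φ = 0
    · rw [h0, zero_add]; exact Or.inr ⟨w', hw', hφw'⟩
    by_cases h0' : φ' = 0
    · rw [h0', add_zero]; exact Or.inr ⟨w, hw, hφw⟩
    obtain ⟨x, hx, h1, h2⟩ := common_zero hQ hdim hbig hφw h0 hw hφw' h0' hw'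
    exact Or.inr ⟨x, hx.1, hQ.add_left φ φ' x (Q_of_cen hQ hdim hbig hx hφw h0 hw h1)
      (Q_of_cen hQ hdim hbig hx hφw' h0' hw' h2)⟩
  smul_mem' := by
    intro c φ hφ
    rcases hφ with rfl | ⟨w, hw, hφw⟩
    · left; rw [smul_zero]
    · exact Or.inr ⟨w, hw, hQ.smul_left c φ w hφw⟩

end Core

theorem main : Cfsg.Agent.Lib.Helper83.MclStmt.SLCORE.{u, v} := by
  intro F _ V _ _ _ Q hQ _ hex
  obtain ⟨v₀, φ₁, φ₂, hv₀, hφ₁, hφ₂, hli⟩ := hex
  have hdim : ∀ v w, IsCen Q v → IsCen Q w →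
      Module.finrank F (Lsub hQ v) = Module.finrank F (Lsub hQ w) := by
    intro v w ⟨hv0, φ, hφ, hφv⟩ ⟨hw0, ψ, hψ, hψw⟩
    exact finrank_L_eq_of_rel hQ (hQ.conn φ v ψ w hφv hφ hv0 hψw hψ hw0)
  have hφ₁0 : φ₁ ≠ 0 := by
    have := hli.ne_zero 0
    simpa using this
  have hcen₀ : IsCen Q v₀ := ⟨hv₀, φ₁, hφ₁0, hφ₁⟩
  have hbig₀ : 2 ≤ Module.finrank F (Lsub hQ v₀) := by
    have h1 : Submodule.span F (Set.range ![φ₁, φ₂]) ≤ Lsub hQ v₀ := by
      rw [Submodule.span_le]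
      rintro _ ⟨i, rfl⟩
      fin_cases i
      · exact hφ₁
      · exact hφ₂
    have h2 := Submodule.finrank_mono h1
    rw [finrank_span_eq_card hli] at h2
    simpa using h2
  have hbig : ∀ v, IsCen Q v → 2 ≤ Module.finrank F (Lsub hQ v) := fun v hv => by
    rw [hdim v v₀ hv hcen₀]; exact hbig₀
  obtain ⟨Λ, hΛ⟩ : ∃ Λ : Submodule F (Module.Dual F V), Λ = Lam hQ hdim hbig := ⟨_, rfl⟩
  have hmemΛ : ∀ φ, φ ∈ Λ ↔ (φ = 0 ∨ ∃ w, w ≠ 0 ∧ Q φ w) := fun φ => by rw [hΛ]; rfl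
  have hax : ax Q = Λ.dualCoannihilator := by
    ext x
    simp only [ax, Submodule.mem_iInf, LinearMap.mem_ker, Submodule.mem_dualCoannihilator]
    constructor
    · intro h φ hφ
      rcases (hmemΛ φ).mp hφ with rfl | ⟨w, hw, hφw⟩
      · rfl
      · by_cases h0 : φ = 0
        · rw [h0]; rfl
        · exact h φ w ⟨h0, hw, hφw⟩
    · intro h φ w ⟨hφ, hw, hφw⟩
      exact h φ ((hmemΛ φ).mpr (Or.inr ⟨w, hw, hφw⟩))
  have hmem : ∀ x, IsCen Q x → x ∈ cen Q := fun x hx => by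
    obtain ⟨hx0, φ, hφ, hQx⟩ := hx
    exact Submodule.subset_span ⟨φ, hφ, hx0, hQx⟩
  have hsep : ∀ x ∈ cen Q, x ≠ 0 → ∃ ψ ∈ Λ, ψ x ≠ 0 := by
    intro x hx hx0
    obtain ⟨_, η, hη, hηx⟩ := isCen_of_mem_cen hQ hdim hbig hx hx0
    obtain ⟨ψ, u, hψu, hηu, hψx⟩ := hQ.opp η x hηx hη hx0
    have hu0 : u ≠ 0 := fun h0 => hηu (by rw [h0, map_zero])
    exact ⟨ψ, (hmemΛ ψ).mpr (Or.inr ⟨u, hu0, hψu⟩), hψx⟩
  have hdisj : Disjoint (cen Q) (ax Q) := by
    rw [Submodule.disjoint_def]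
    intro x hx hxa
    by_contra hx0
    obtain ⟨ψ, hψ, hψx⟩ := hsep x hx hx0
    rw [hax, Submodule.mem_dualCoannihilator] at hxa
    exact hψx (hxa ψ hψ)
  have hinj : Function.Injective ((cen Q).dualRestrict.comp Λ.subtype) := by
    rw [injective_iff_map_eq_zero]
    rintro ⟨φ, hφ⟩ hker
    have hkill : ∀ x ∈ cen Q, φ x = 0 := fun x hx => by
      have := congrArg (fun f : Module.Dual F (cen Q) => f ⟨x, hx⟩) hker
      simpa using this
    rcases (hmemΛ φ).mp hφ with h0 | ⟨w, hw, hφw⟩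
    · exact Subtype.ext h0
    · by_contra hne
      have hφ0 : φ ≠ 0 := fun h0 => hne (Subtype.ext h0)
      obtain ⟨ψ, u, hψu, hφu, hψw⟩ := hQ.opp φ w hφw hφ0 hw
      have hu0 : u ≠ 0 := fun h0 => hφu (by rw [h0, map_zero])
      have hψ0 : ψ ≠ 0 := fun h0 => hψw (by rw [h0]; rfl)
      exact hφu (hkill u (hmem u ⟨hu0, ψ, hψ0, hψu⟩))
  have hle : Module.finrank F Λ ≤ Module.finrank F (cen Q) := by
    have := LinearMap.finrank_le_finrank_of_injective hinj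
    rwa [Subspace.dual_finrank_eq] at this
  have hsum := Subspace.finrank_add_finrank_dualCoannihilator_eq Λ
  rw [← hax] at hsum
  have hcodisj : cen Q ⊔ ax Q = ⊤ := by
    apply Submodule.eq_top_of_finrank_eq
    have h1 := Submodule.finrank_sup_add_finrank_inf_eq (cen Q) (ax Q)
    rw [disjoint_iff.mp hdisj, finrank_bot, add_zero] at h1
    have h2 := Submodule.finrank_le (cen Q ⊔ ax Q)
    omega
  refine ⟨⟨hdisj, codisjoint_iff.mpr hcodisj⟩, ?_⟩
  intro φ v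
  constructor
  · intro hφv
    by_cases hφ : φ = 0
    · exact Or.inl hφ
    by_cases hv : v = 0
    · exact Or.inr (Or.inl hv)
    refine Or.inr (Or.inr ⟨hmem v ⟨hv, φ, hφ, hφv⟩, ?_, hQ.zero φ v hφv⟩)
    intro x hx
    rw [hax, Submodule.mem_dualCoannihilator] at hx
    exact hx φ ((hmemΛ φ).mpr (Or.inr ⟨v, hv, hφv⟩))
  · rintro (rfl | rfl | ⟨hv, hφax, hφv⟩)
    · exact hQ.zero_left v
    · exact hQ.zero_right φ
    · by_cases hv0 : v = 0
      · rw [hv0]; exact hQ.zero_right φ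
      have hφΛ : φ ∈ Λ := by
        rw [← Subspace.dualCoannihilator_dualAnnihilator_eq (W := Λ), ← hax,
          Submodule.mem_dualAnnihilator]
        exact hφax
      rcases (hmemΛ φ).mp hφΛ with rfl | ⟨w, hw, hφw⟩
      · exact hQ.zero_left v
      · by_cases hφ0 : φ = 0
        · rw [hφ0]; exact hQ.zero_left v
        · exact Q_of_cen hQ hdim hbig (isCen_of_mem_cen hQ hdim hbig hv hv0) hφw hφ0 hw hφv

end Cfsg.Agent.Lib.Helper87.MclSLCORE
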