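import Mathlib
import Cfsg.Prelude.Def_FusionSystem
import Cfsg.Prelude.Def_FusionComponents
import Cfsg.Agent.H85.Basic
import Cfsg.Agent.H85.Aut
import Cfsg.Agent.H85.PrimeIdx
import Cfsg.Agent.H84.FusSat2
import Cfsg.Agent.Lib.Helper87.FSSat
import Cfsg.Agent.Lib.Helper88.Centric
import Cfsg.Agent.Lib.Helper88.PResStmt
import Cfsg.Agent.Lib.Helper87.NRStmt

/-! Piece EXT of S5142: extending along the normalizers of a centric subgroup. -/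

set_option autoImplicit false

namespace Cfsg.Agent.Lib.Helper87.NREXT

open Cfsg Cfsg.FusionSystem Cfsg.Agent.Lib.Helper88.PResStmt Cfsg.Agent.Lib.Helper87.NRStmt

universe u

/-- A centric subgroup is fully centralized. -/
theorem fc_of_centric {Ω : Type*} [Group Ω] {T : Subgroup Ω} [Finite T] (D : FusionSystem T)
    {Q : Subgroup Ω} (hQ : D.IsCentric Q) : D.IsFullyCentralized Q := by
  refine ⟨hQ.1, fun R hR => ?_⟩
  obtain ⟨φ, hφ, rfl⟩ := hR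
  have hR := hQ.2 φ.range ⟨φ, hφ, rfl⟩
  have hinj := D.injective_of_mem hφ
  have hex : ∀ c : centralizerIn T φ.range, ∃ x : Q, φ x = c := fun c => hR c.2
  choose f hf using hex
  have hmem : ∀ c, (f c : Ω) ∈ centralizerIn T Q := by
    intro c
    refine ⟨hQ.1 (f c).2, Subgroup.mem_centralizer_iff.mpr fun y hy => ?_⟩
    have h1 : φ ⟨y, hy⟩ * (c : Ω) = (c : Ω) * φ ⟨y, hy⟩ :=
      (Subgroup.mem_centralizer_iff.mp c.2.2) _ ⟨_, rfl⟩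
    rw [← hf c, ← map_mul, ← map_mul] at h1
    exact congrArg Subtype.val (hinj h1)
  haveI : Finite (centralizerIn T Q) := H85.finite_of_le inf_le_left
  refine Nat.card_le_card_of_injective (fun c => (⟨f c, hmem c⟩ : centralizerIn T Q)) ?_
  intro a b hab
  have h1 : (f a : Ω) = f b := congrArg (fun c : centralizerIn T Q => (c : Ω)) hab
  have h2 : f a = f b := Subtype.ext h1
  apply Subtype.ext
  rw [← hf a, ← hf b, h2]

theorem main : ExtUp.{u} := by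
  intro Ω _ T _ p _ hT D hD I hID Γ hΓ hfrat hpelt
  suffices H : ∀ n : ℕ, ∀ (γ : MulAut T), γ ∈ Γ → ∀ (P : Subgroup Ω) (hP : D.IsCentric P),
      Nat.card T - Nat.card P = n → resAut γ P hP.1 ∈ I.Hom P → γ ∈ D.autGroup T from
    fun γ hγ P hP h => H _ γ hγ P hP rfl h
  intro n
  induction n using Nat.strong_induction_on with
  | _ n IH =>
  intro γ hγ P hP hn hres
  have hPT := hP.1
  by_cases hPeq : P = T
  · have hTP : T ≤ P := hPeq.symm.le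
    have h1 := H85.restrict_mem D (hID P hres) hTP
    exact (H85.mem_autGroup_iff D le_rfl γ).mpr (H85.hom_congr D h1 (fun x => rfl))
  have hρD : resAut γ P hPT ∈ D.Hom P := hID P hres
  have hQc : D.IsCentric (resAut γ P hPT).range :=
    H85.isCentric_of_isConj D hP ⟨_, hρD, rfl⟩
  have hQrec : D.IsReceptive (resAut γ P hPT).range :=
    Cfsg.Agent.H84.receptive_of_fc hT D hD (fc_of_centric D hQc)
  obtain ⟨ψ, hψ, hψx⟩ := hQrec.2 P _ hρD rfl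
  obtain ⟨N, hNdef⟩ : ∃ N : Subgroup Ω, N = normalizerIn T P := ⟨_, rfl⟩
  have hNT : N ≤ T := by rw [hNdef]; exact inf_le_left
  have hPN : P ≤ N := by rw [hNdef]; exact fun x hx => ⟨hPT hx, Subgroup.le_normalizer hx⟩
  haveI : Finite N := H85.finite_of_le hNT
  haveI : Finite P := H85.finite_of_le hPT
  have hNext : N ≤ extender T P (resAut γ P hPT) := by
    intro g hg
    rw [hNdef] at hg
    refine Subgroup.subset_closure ⟨hg.1, hg.2, ((γ ⟨g, hg.1⟩ : T) : Ω), (γ ⟨g, hg.1⟩).2,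
      fun x hx => ?_⟩
    rw [resAut_apply, resAut_apply]
    have e : (⟨g * (x : Ω) * g⁻¹, hPT hx⟩ : T) = ⟨g, hg.1⟩ * ⟨x, hPT x.2⟩ * ⟨g, hg.1⟩⁻¹ :=
      Subtype.ext rfl
    rw [e, map_mul, map_mul, map_inv]
    rfl
  have hψN : ψ.comp (Subgroup.inclusion hNext) ∈ D.Hom N := H85.restrict_mem D hψ hNext
  obtain ⟨β, hβ, ψ', hψ', hψβ⟩ := hfrat N _ hψN
  have hψ'T : ∀ x, ψ' x ∈ T := (I.le_of_mem hψ').2
  have hψ'D : ψ' ∈ D.Hom N := hID N hψ'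
  obtain ⟨γ', hγ'def⟩ : ∃ γ' : MulAut T, γ' = β⁻¹ * γ := ⟨_, rfl⟩
  have hγ' : γ' ∈ Γ := by
    rw [hγ'def]; exact Γ.mul_mem (Γ.inv_mem (hΓ hβ)) hγ
  -- ψ' and γ' agree on P
  have hagree : ∀ x : P, (⟨ψ' ⟨x, hPN x.2⟩, hψ'T _⟩ : T) = γ' ⟨x, hPT x.2⟩ := by
    intro x
    have h1 := hψβ ⟨x, hPN x.2⟩ (hψ'T _)
    have h2 : (ψ.comp (Subgroup.inclusion hNext)) ⟨x, hPN x.2⟩ = ((γ ⟨x, hPT x.2⟩ : T) : Ω) := by
      show ψ ⟨x, hNext (hPN x.2)⟩ = _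
      rw [hψx x x.2 (hNext (hPN x.2))]
      rfl
    rw [h2] at h1
    have h3 : γ ⟨x, hPT x.2⟩ = β ⟨ψ' ⟨x, hPN x.2⟩, hψ'T _⟩ := Subtype.ext h1
    rw [hγ'def]
    show _ = β⁻¹ (γ ⟨x, hPT x.2⟩)
    rw [h3, MulAut.inv_apply_self]
  -- the key structure statement
  have hkey : ∀ g : N, ∃ z : N, (z : Ω) ∈ P ∧
      (⟨ψ' g, hψ'T g⟩ : T) = γ' (⟨g, hNT g.2⟩ * ⟨z, hNT z.2⟩) := by
    intro g
    obtain ⟨c, hcdef⟩ : ∃ c : T, c = (γ' ⟨g, hNT g.2⟩)⁻¹ * ⟨ψ' g, hψ'T g⟩ := ⟨_, rfl⟩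
    have hcomm : ∀ x : N, (x : Ω) ∈ P → (c : Ω) * ψ' x = ψ' x * (c : Ω) := by
      intro x hx
      have hgN : (g : Ω) ∈ normalizerIn T P := by rw [← hNdef]; exact g.2
      have hconjP : (g : Ω) * x * (g : Ω)⁻¹ ∈ P :=
        (Subgroup.mem_normalizer_iff.mp hgN.2 x).mp hx
      have e1 := hagree ⟨x, hx⟩
      have e2 := hagree ⟨(g : Ω) * x * (g : Ω)⁻¹, hconjP⟩
      have e3 : (⟨(g : Ω) * x * (g : Ω)⁻¹, hPN hconjP⟩ : N) = g * x * g⁻¹ := Subtype.ext rfl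
      have e4 : (⟨ψ' (g * x * g⁻¹), hψ'T _⟩ : T) =
          ⟨ψ' g, hψ'T g⟩ * ⟨ψ' x, hψ'T x⟩ * ⟨ψ' g, hψ'T g⟩⁻¹ := by
        apply Subtype.ext
        simp [map_mul, map_inv]
      have e5 : (⟨(g : Ω) * x * (g : Ω)⁻¹, hPT hconjP⟩ : T) =
          ⟨g, hNT g.2⟩ * ⟨x, hPT hx⟩ * ⟨g, hNT g.2⟩⁻¹ := Subtype.ext rfl
      have e6 : (⟨ψ' g, hψ'T g⟩ : T) * ⟨ψ' x, hψ'T x⟩ * ⟨ψ' g, hψ'T g⟩⁻¹ =
          γ' ⟨g, hNT g.2⟩ * ⟨ψ' x, hψ'T x⟩ * (γ' ⟨g, hNT g.2⟩)⁻¹ := by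
        rw [← e4]
        have : (⟨ψ' (g * x * g⁻¹), hψ'T _⟩ : T) =
            ⟨ψ' ⟨(g : Ω) * x * (g : Ω)⁻¹, hPN hconjP⟩, hψ'T _⟩ := by
          apply Subtype.ext
          show ψ' (g * x * g⁻¹) = ψ' ⟨(g : Ω) * x * (g : Ω)⁻¹, hPN hconjP⟩
          rw [e3]
        rw [this, e2, e5, map_mul, map_mul, map_inv]
        have e1' : γ' ⟨x, hPT hx⟩ = ⟨ψ' x, hψ'T x⟩ := e1.symm
        rw [e1']
      have e7 : c * ⟨ψ' x, hψ'T x⟩ = ⟨ψ' x, hψ'T x⟩ * c := by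
        rw [hcdef]
        have : (⟨ψ' g, hψ'T g⟩ : T) * ⟨ψ' x, hψ'T x⟩ =
            γ' ⟨g, hNT g.2⟩ * ⟨ψ' x, hψ'T x⟩ * (γ' ⟨g, hNT g.2⟩)⁻¹ * ⟨ψ' g, hψ'T g⟩ := by
          rw [← e6]; group
        calc (γ' ⟨g, hNT g.2⟩)⁻¹ * ⟨ψ' g, hψ'T g⟩ * ⟨ψ' x, hψ'T x⟩
            = (γ' ⟨g, hNT g.2⟩)⁻¹ * ((⟨ψ' g, hψ'T g⟩ : T) * ⟨ψ' x, hψ'T x⟩) := by group
          _ = _ := by rw [this]; group
      exact congrArg (fun t : T => (t : Ω)) e7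
    obtain ⟨z, hzP, hz⟩ := Helper88.Centric.image_centric D hP hPN hψ'D (c : Ω) c.2 hcomm
    refine ⟨z, hzP, ?_⟩
    have e1 := hagree ⟨z, hzP⟩
    have e2 : (⟨ψ' z, hψ'T z⟩ : T) = c := Subtype.ext hz
    rw [map_mul]
    have e3 : γ' ⟨z, hNT z.2⟩ = c := by
      rw [← e2]; exact e1.symm
    rw [e3, hcdef]; group
  -- the automorphism μ of N
  have hmemN : ∀ g : N, ((γ'⁻¹ ⟨ψ' g, hψ'T g⟩ : T) : Ω) ∈ N := by
    intro g
    obtain ⟨z, -, hz⟩ := hkey g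
    rw [hz, MulAut.inv_apply_self]
    exact N.mul_mem g.2 z.2
  obtain ⟨μ₀, hμ₀⟩ : ∃ μ₀ : N →* N, ∀ g : N, ((μ₀ g : N) : Ω) = ((γ'⁻¹ ⟨ψ' g, hψ'T g⟩ : T) : Ω) :=
    ⟨((T.subtype.comp ((γ'⁻¹ : MulAut T).toMonoidHom.comp (ψ'.codRestrict T hψ'T)))).codRestrict N
      hmemN, fun g => rfl⟩
  have hμ₀inj : Function.Injective μ₀ := by
    intro a b hab
    have h1 : ((γ'⁻¹ ⟨ψ' a, hψ'T a⟩ : T) : Ω) = ((γ'⁻¹ ⟨ψ' b, hψ'T b⟩ : T) : Ω) := by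
      rw [← hμ₀ a, ← hμ₀ b, hab]
    have h2 : (⟨ψ' a, hψ'T a⟩ : T) = ⟨ψ' b, hψ'T b⟩ := (γ'⁻¹).injective (Subtype.ext h1)
    exact I.injective_of_mem hψ' (congrArg (fun t : T => (t : Ω)) h2)
  obtain ⟨μ, hμ⟩ : ∃ μ : MulAut N, ∀ g : N, μ g = μ₀ g :=
    ⟨MulEquiv.ofBijective μ₀ ⟨hμ₀inj, Finite.surjective_of_injective hμ₀inj⟩, fun g => rfl⟩
  have hμval : ∀ g : N, (⟨((μ g : N) : Ω), hNT (μ g).2⟩ : T) = γ'⁻¹ ⟨ψ' g, hψ'T g⟩ := by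
    intro g
    apply Subtype.ext
    rw [hμ g, hμ₀ g]
  have hrel : ∀ x : N, ψ' x = ((γ' ⟨((μ x : N) : Ω), hNT (μ x).2⟩ : T) : Ω) := by
    intro x
    rw [hμval x, MulAut.apply_inv_self]
  -- μ g = g * z with z ∈ P
  have hμz : ∀ g : N, ∃ z : N, (z : Ω) ∈ P ∧ μ g = g * z := by
    intro g
    obtain ⟨z, hzP, hz⟩ := hkey g
    refine ⟨z, hzP, ?_⟩
    apply Subtype.ext
    have h1 := hμval g
    rw [hz, MulAut.inv_apply_self] at h1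
    exact congrArg (fun t : T => (t : Ω)) h1
  have hμfix : ∀ z : N, (z : Ω) ∈ P → μ z = z := by
    intro z hz
    apply Subtype.ext
    have h1 := hμval z
    have h2 := hagree ⟨z, hz⟩
    rw [h2, MulAut.inv_apply_self] at h1
    exact congrArg (fun t : T => (t : Ω)) h1
  have hμpow : ∀ (j : ℕ) (g z : N), (z : Ω) ∈ P → μ g = g * z → (μ ^ j) g = g * z ^ j := by
    intro j
    induction j with
    | zero => intro g z _ _; simp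
    | succ j ih =>
      intro g z hz hgz
      rw [pow_succ', MulAut.mul_apply, ih g z hz hgz, map_mul, map_pow, hgz, hμfix z hz,
        pow_succ', mul_assoc]
  have hμcard : μ ^ Nat.card P = 1 := by
    ext g
    obtain ⟨z, hzP, hz⟩ := hμz g
    rw [hμpow _ g z hzP hz]
    have h1 : (⟨(z : Ω), hzP⟩ : P) ^ Nat.card P = 1 := pow_card_eq_one'
    have h2 : (z : Ω) ^ Nat.card P = 1 := by
      have h3 : (((⟨(z : Ω), hzP⟩ : P) ^ Nat.card P : P) : Ω) = ((1 : P) : Ω) :=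
        congrArg (fun t : P => (t : Ω)) h1
      rw [Subgroup.coe_pow, Subgroup.coe_one] at h3
      exact h3
    simp [h2]
  obtain ⟨a, ha⟩ := (hT.to_le hPT).exists_card_eq
  have hdvd : orderOf μ ∣ p ^ a := by
    rw [← ha]; exact orderOf_dvd_of_pow_eq_one hμcard
  obtain ⟨k, -, hk⟩ := (Nat.dvd_prime_pow (Fact.out : p.Prime)).mp hdvd
  have hμI : μ ∈ I.autGroup N := hpelt N hNT γ' hγ' ψ' hψ' μ hrel k hk
  have hμinv := (H85.mem_autGroup_iff I hNT μ⁻¹).mp (Subgroup.inv_mem _ hμI)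
  have hNc : D.IsCentric N := Helper88.Centric.isCentric_of_le D hP hPN hNT
  have hres' : resAut γ' N hNc.1 ∈ I.Hom N := by
    refine H85.comp_mem' I hμinv hψ' (fun x => (μ⁻¹ x).2) (fun x => ?_)
    rw [resAut_apply]
    have h1 := hrel (μ⁻¹ x)
    rw [MulAut.apply_inv_self] at h1
    exact h1.symm
  have hlt : Nat.card P < Nat.card N := by
    rw [hNdef]; exact Lib.Helper87.FSSat.card_lt_card_normalizerIn hT hPT hPeq
  have hle : Nat.card N ≤ Nat.card T := Subgroup.card_le_of_le hNT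
  have h6 : γ' ∈ D.autGroup T :=
    IH (Nat.card T - Nat.card N) (by omega) γ' hγ' N hNc rfl hres'
  have h' : γ = β * γ' := by rw [hγ'def]; group
  rw [h']
  exact Subgroup.mul_mem _ hβ h6

end Cfsg.Agent.Lib.Helper87.NREXT
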