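import Mathlib
import Cfsg.Prelude.Def_FusionSystem
import Cfsg.Prelude.Def_FusionComponents
import Cfsg.Agent.H85.Basic
import Cfsg.Agent.H85.Aut
import Cfsg.Agent.H85.Invariant
import Cfsg.Agent.H85.PrimeIdx
import Cfsg.Agent.Lib.Helper87.PCStmt

/-! Assembly of S5243 from the pieces of `PCStmt`. -/

set_option autoImplicit false

namespace Cfsg.Agent.Lib.Helper87.PCAsm

open Cfsg Cfsg.FusionSystem Cfsg.Agent.Lib.Helper87.PCStmt

universe u v

/-- The properties of the system `c.D`. -/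
theorem core (hPK : PK.{u}) (hW : W.{u}) (hHC : HConj.{u}) (hKF : KF.{u}) (hCS0 : CS0.{u})
    (hCS1 : CS1.{u}) (hCS2 : CS2.{u}) (hFrat : Frat.{u}) (hSatH : SatH.{u}) (hHStar : HStar.{u})
    (hInvD : InvD.{u}) (hAutD : AutD.{u}) (hESub : ESub.{u}) (hProper : Proper.{u})
    (hClosedD : ClosedD.{u}) (hPPH : PPH.{u})
    {Ω : Type u} [Group Ω] {S T : Subgroup Ω} [Finite S] (p : ℕ) [Fact p.Prime]
    (F : FusionSystem S) (E : FusionSystem T) (K : Subgroup (MulAut T)) (c : Ctx p F E K) :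
    c.D.IsSaturated p ∧ c.D.HasPrimeToPIndexIn F p ∧ FratC F c.D ∧ H85.InvCond c.D F ∧
      E.IsSubsystemOf c.D ∧ AutDc F c.D K c.hTS ∧
      ((∃ β ∈ F.autGroup T, β ∉ K) → ¬ ∀ P : Subgroup Ω, c.D.Hom P = F.Hom P) := by
  have hS := c.hS
  have hF := c.hF
  have pk := hPK p F E K c
  have w := hW p F E K c pk
  have hc := hHC p F E K c
  have kf := hKF p F E K c
  have aut := hAutD p F E K c
  have invD := hInvD p F E K c hc
  have hTS' : F.StronglyClosed S := ⟨le_rfl, fun _ _ _ hφ x => (F.le_of_mem hφ).2 x⟩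
  have pph := hPPH p F E K c pk
  have hY : ∀ Y : Subgroup Ω, F.IsCentric Y → Y ∉ famH F E → F.IsFullyAutomized p Y →
      F.IsReceptive Y → HasNormalPConj p F Y := by
    intro Y hYc hYH hfa _
    have hne : ¬ E.IsCentric (Y ⊓ T) := fun h => hYH ⟨hYc, h⟩
    obtain ⟨P', hYP', hP'⟩ := kf Y hYc hne
    have h0 := hCS0 p hS F c.hT P' (H85.IsConj_le_right F hYP') hP'
    exact hCS2 p hS F Y P' hfa hYc hYP' h0
  have fratG := hFrat p hS F hF c.D c.D_le_F hTS' invD (famH F E) pph hY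
  have hpel : ∀ P : Subgroup Ω, P ≤ S →
      (Subgroup.closure {α : ↥(F.autGroup P) | ∃ k : ℕ, orderOf α = p ^ k}).map
        (F.autGroup P).subtype ≤ c.D.autGroup P := by
    intro P hP
    refine (Subgroup.map_le_iff_le_comap).mpr ((Subgroup.closure_le _).mpr ?_)
    rintro β ⟨k, hk⟩
    exact H85.pElement_mem_of_frattini p F hF c.D hTS' invD fratG hP β k hk
  obtain ⟨hidx, hfr, hcen⟩ := H85.primeIdx_main p hS F hF c.D c.D_le_F (fun P hP => hpel P hP.1)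
  have hfr' : FratC F c.D := hfr
  have hcl := hClosedD p F E K c w aut
  have hTD : c.D.StronglyClosed T :=
    ⟨c.hTS, fun R hR φ hφ x => c.hT.2 R hR φ (c.D_le_F R hφ) x⟩
  have hcs : ∀ Q : Subgroup Ω, Q ≤ S → centralizerIn S Q ≤ Q →
      ¬ (centralizerIn T (Q ⊓ T) ≤ Q ⊓ T) →
      ¬ (autInducedBy S Q ⊓ (pCore p ↥(c.D.autGroup Q)).map (c.D.autGroup Q).subtype ≤ Inn Q) :=
    fun Q hQ hcQ hn => hCS1 p hS c.D Q hQ hcQ (hCS0 p hS c.D hTD Q hQ hn)
  have hstar := hHStar p F E K c kf hfr' (fun P hP => (hcen P).mp hP) hcs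
  have hsat := hSatH p hS F hF c.D c.D_le_F (famH F E) (fun P hP => hP.1.1)
    (fun P hP Q hPQ => hc P Q hP hPQ) hfr' hcl c.D_min hstar
  exact ⟨hsat, hidx, hfr', invD, hESub p F E K c w hfr' aut, aut, hProper p F E K c⟩

/-- The extension clause of normality for a subsystem over `S` itself. -/
theorem ext_aux {Ω : Type*} [Group Ω] {S : Subgroup Ω} (F : FusionSystem S) (U : Subgroup Ω)
    (hSU : S ≤ U) (hUS : U ≤ S) (α : MulAut S) (hα : α ∈ F.autGroup S) :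
    ∃ β ∈ F.autGroup U,
      (∀ x : S, ((β (Subgroup.inclusion hSU x) : U) : Ω) = ((α x : S) : Ω)) ∧
      ∀ c : U, (c : Ω) ∈ centralizerIn S S →
        (c : Ω)⁻¹ * ((β c : U) : Ω) ∈ S ⊓ Subgroup.centralizer (S : Set Ω) := by
  have hU : U = S := le_antisymm hUS hSU
  subst hU
  refine ⟨α, hα, fun x => rfl, fun c hc => ?_⟩
  have hαc : ((α c : U) : Ω) ∈ Subgroup.centralizer (U : Set Ω) := by
    rw [Subgroup.mem_centralizer_iff]
    intro h hh
    obtain ⟨h', hh'⟩ := α.surjective ⟨h, hh⟩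
    have h1 : (h' : Ω) * c = c * h' := (Subgroup.mem_centralizer_iff.mp hc.2) h' h'.2
    have h2 : h' * c = c * h' := Subtype.ext h1
    have h3 := congrArg (fun z : U => ((α z : U) : Ω)) h2
    simp only [map_mul, Subgroup.coe_mul, hh'] at h3
    exact h3
  exact Subgroup.mul_mem _ (Subgroup.inv_mem _ hc) ⟨(α c).2, hαc⟩

/-- The statement of S5243, from the pieces. -/
theorem final (hPK : PK.{u}) (hW : W.{u}) (hHC : HConj.{u}) (hKF : KF.{u}) (hCS0 : CS0.{u})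
    (hCS1 : CS1.{u}) (hCS2 : CS2.{u}) (hFrat : Frat.{u}) (hSatH : SatH.{u}) (hHStar : HStar.{u})
    (hInvD : InvD.{u}) (hAutD : AutD.{u}) (hESub : ESub.{u}) (hProper : Proper.{u})
    (hClosedD : ClosedD.{u}) (hPPH : PPH.{u})
    {Ω : Type u} [Group Ω] {S : Subgroup Ω} [Finite S] (p : ℕ) [Fact p.Prime]
    (hS : IsPGroup p S) (F : Cfsg.FusionSystem S) (hF : F.IsSaturated p) {T : Subgroup Ω}
    (hTS : T ≤ S) (E : Cfsg.FusionSystem T) (hE : E.IsNormalIn F p) {Δ : Type v} [Group Δ]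
    [Finite Δ] [Nontrivial Δ] (hΔ : (Nat.card Δ).Coprime p) (χ : ↥(F.autGroup T) →* Δ)
    (hχ : Function.Surjective χ) (hker : (E.autGroup T).subgroupOf (F.autGroup T) ≤ χ.ker) :
    ∃ F₀ : Cfsg.FusionSystem S, F₀.IsNormalIn F p ∧ ¬ (∀ P : Subgroup Ω, F₀.Hom P = F.Hom P) ∧
      E.IsSubsystemOf F₀ ∧
      (∀ α : MulAut ↥S, α ∈ F₀.autGroup S ↔ α ∈ F.autGroup S ∧ ∃ β : ↥(F.autGroup T), χ β = 1 ∧
        ∀ t : ↥T, (((β : MulAut ↥T) t : ↥T) : Ω) = ((α ⟨(t : Ω), hTS t.2⟩ : ↥S) : Ω)) ∧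
      ∀ R : Cfsg.FusionSystem S, F.IsPPrimeResidual p R → R.IsSubsystemOf F₀ := by
  obtain ⟨K, hKdef⟩ : ∃ K : Subgroup (MulAut T), K = χ.ker.map (F.autGroup T).subtype :=
    ⟨_, rfl⟩
  have hKmem : ∀ κ : MulAut T, κ ∈ K ↔ ∃ b : ↥(F.autGroup T), χ b = 1 ∧ (b : MulAut T) = κ := by
    intro κ
    rw [hKdef]
    constructor
    · rintro ⟨b, hb, rfl⟩
      exact ⟨b, MonoidHom.mem_ker.mp hb, rfl⟩
    · rintro ⟨b, hb, rfl⟩
      exact ⟨b, MonoidHom.mem_ker.mpr hb, rfl⟩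
  have hinvIn := hE.1.2.2
  have hT : F.StronglyClosed T := hinvIn.2.1
  have c : Ctx p F E K := by
    refine ⟨hS, hF, hE.1.1, hinvIn, ?_, ?_, ?_, ?_, ?_⟩
    · intro κ hκ
      obtain ⟨b, -, rfl⟩ := (hKmem κ).mp hκ
      exact b.2
    · intro γ hγ κ hκ
      obtain ⟨b, hb, rfl⟩ := (hKmem κ).mp hκ
      refine (hKmem _).mpr ⟨⟨γ, hγ⟩ * b * ⟨γ, hγ⟩⁻¹, ?_, rfl⟩
      rw [map_mul, map_mul, hb, mul_one, map_inv, mul_inv_cancel]
    · intro e he
      have hle : E.autGroup T ≤ F.autGroup T := Subgroup.closure_mono (fun a ha => hinvIn.1 T ha)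
      have heF : e ∈ F.autGroup T := hle he
      have h1 : (⟨e, heF⟩ : ↥(F.autGroup T)) ∈ (E.autGroup T).subgroupOf (F.autGroup T) :=
        Subgroup.mem_subgroupOf.mpr he
      exact (hKmem e).mpr ⟨⟨e, heF⟩, MonoidHom.mem_ker.mp (hker h1), rfl⟩
    · refine ⟨Nat.card Δ, hΔ, fun γ hγ => ?_⟩
      refine (hKmem _).mpr ⟨⟨γ, hγ⟩ ^ Nat.card Δ, ?_, rfl⟩
      rw [map_pow]
      exact pow_card_eq_one'
    · intro g hg
      obtain ⟨α, hα, hαg⟩ := H85.exists_aut_conj F hT hg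
      refine ⟨α, (hKmem α).mpr ⟨⟨α, hα⟩, ?_, rfl⟩, hαg⟩
      have hpow : ∀ n : ℕ, ∀ t : T, (((α ^ n) t : T) : Ω) = g ^ n * t * (g ^ n)⁻¹ := by
        intro n
        induction n with
        | zero => intro t; simp
        | succ n ih =>
          intro t
          rw [pow_succ', MulAut.mul_apply, hαg, ih, pow_succ']
          group
      have hg1 : g ^ Nat.card S = 1 := by
        have h1 : (⟨g, hg⟩ : S) ^ Nat.card S = 1 := pow_card_eq_one'
        have h2 : (((⟨g, hg⟩ : S) ^ Nat.card S : S) : Ω) = ((1 : S) : Ω) :=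
          congrArg Subtype.val h1
        rw [Subgroup.coe_pow, Subgroup.coe_one] at h2
        exact h2
      have hα1 : α ^ Nat.card S = 1 := by
        ext t
        rw [hpow, hg1]
        simp
      have hx1 : χ ⟨α, hα⟩ ^ Nat.card S = 1 := by
        rw [← map_pow]
        have : (⟨α, hα⟩ : ↥(F.autGroup T)) ^ Nat.card S = 1 := Subtype.ext hα1
        rw [this, map_one]
      have hx2 : χ ⟨α, hα⟩ ^ Nat.card Δ = 1 := pow_card_eq_one'
      obtain ⟨k, hk⟩ := hS.exists_card_eq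
      have hcop : Nat.Coprime (Nat.card Δ) (Nat.card S) := by
        rw [hk]; exact Nat.Coprime.pow_right k hΔ
      have hd1 := orderOf_dvd_of_pow_eq_one hx1
      have hd2 := orderOf_dvd_of_pow_eq_one hx2
      have hd : orderOf (χ ⟨α, hα⟩) ∣ 1 := by
        have := Nat.dvd_gcd hd2 hd1
        rwa [hcop.gcd_eq_one] at this
      exact orderOf_eq_one_iff.mp (Nat.dvd_one.mp hd)
  obtain ⟨hsat, hidx, hfr, invD, hED, aut, hprop⟩ :=
    core hPK hW hHC hKF hCS0 hCS1 hCS2 hFrat hSatH hHStar hInvD hAutD hESub hProper hClosedD hPPH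
      p F E K c
  have hTS' : F.StronglyClosed S := ⟨le_rfl, fun _ _ _ hφ x => (F.le_of_mem hφ).2 x⟩
  have hβ : ∃ β ∈ F.autGroup T, β ∉ K := by
    obtain ⟨d, hd⟩ := exists_ne (1 : Δ)
    obtain ⟨b, rfl⟩ := hχ d
    refine ⟨b, b.2, fun hbK => ?_⟩
    obtain ⟨b', hb', hbb'⟩ := (hKmem _).mp hbK
    have : b' = b := Subtype.ext hbb'
    rw [this] at hb'
    exact hd hb'
  refine ⟨c.D, ⟨⟨hsat, hF, c.D_le_F, hTS', invD, fun P _ φ hφ => hfr P φ hφ⟩, ?_⟩, hprop hβ,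
    hED, fun α => ?_, fun R hR => hR.2.2 c.D hsat hidx⟩
  · intro α hα
    have hle : c.D.autGroup S ≤ F.autGroup S := Subgroup.closure_mono (fun a ha => c.D_le_F S ha)
    have hαF : α ∈ F.autGroup S := hle hα
    exact ext_aux F (S ⊔ centralizerIn S S) le_sup_left (sup_le le_rfl inf_le_left) α hαF
  · rw [aut α]
    constructor
    · rintro ⟨hαF, κ, hκ, hκα⟩
      obtain ⟨b, hb, rfl⟩ := (hKmem κ).mp hκ
      exact ⟨hαF, b, hb, hκα⟩
    · rintro ⟨hαF, b, hb, hbα⟩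
      exact ⟨hαF, b, (hKmem _).mpr ⟨b, hb, rfl⟩, hbα⟩

end Cfsg.Agent.Lib.Helper87.PCAsm
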