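import Mathlib
import Cfsg.Prelude.Def_FusionSystem
import Cfsg.Prelude.Def_FusionComponents
import Cfsg.Agent.H85.Basic
import Cfsg.Agent.H85.Aut
import Cfsg.Agent.H85.PrimeIdx
import Cfsg.Agent.H84.FusSat2
import Cfsg.Agent.Lib.Helper87.FSSat
import Cfsg.Agent.Lib.Helper87.FSBasic
import Cfsg.Agent.Lib.Helper88.Centric
import Cfsg.Agent.Lib.Helper88.PResStmt
import Cfsg.Agent.Lib.Helper87.NREXT
import Cfsg.Agent.Lib.Helper87.PCStmt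

/-! Piece W of S5243: an element of `Aut_F(T)` whose restriction to an `E`-centric subgroup lies
in `K ∘ E` lies in `K`. -/

set_option autoImplicit false

namespace Cfsg.Agent.Lib.Helper87.PCW

open Cfsg Cfsg.FusionSystem Cfsg.Agent.Lib.Helper88.PResStmt Cfsg.Agent.Lib.Helper87.PCStmt

universe u

theorem main : W.{u} := by
  intro Ω _ S T _ p _ F E K c hPK
  have hTS : T ≤ S := c.hTS
  haveI : Finite T := H85.finite_of_le hTS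
  have hT : IsPGroup p T := c.hS.to_le hTS
  suffices H : ∀ n : ℕ, ∀ (γ : MulAut T), γ ∈ F.autGroup T → ∀ (P : Subgroup Ω)
      (hP : E.IsCentric P), Nat.card T - Nat.card P = n → resAut γ P hP.1 ∈ c.KS.Hom P → γ ∈ K from
    fun γ hγ P hP h => H _ γ hγ P hP rfl h
  intro n
  induction n using Nat.strong_induction_on with
  | _ n IH =>
  intro γ₀ hγ₀ P hP hn hres₀
  have hPT := hP.1
  obtain ⟨κ, hκ, e, he, hκe⟩ := hres₀
  have heT : ∀ x, e x ∈ T := (E.le_of_mem he).2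
  obtain ⟨γ, hγdef⟩ : ∃ γ : MulAut T, γ = κ⁻¹ * γ₀ := ⟨_, rfl⟩
  have hγ : γ ∈ F.autGroup T := by
    rw [hγdef]; exact Subgroup.mul_mem _ (Subgroup.inv_mem _ (c.hKF hκ)) hγ₀
  have hγ₀eq : γ₀ = κ * γ := by rw [hγdef]; group
  suffices hγK : γ ∈ K by rw [hγ₀eq]; exact K.mul_mem hκ hγK
  have hres : resAut γ P hPT ∈ E.Hom P := by
    refine H85.hom_congr E he (fun x => ?_)
    rw [resAut_apply, hγdef]
    show ((κ⁻¹ (γ₀ ⟨x, hPT x.2⟩) : T) : Ω) = e x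
    have h1 : γ₀ ⟨x, hPT x.2⟩ = κ ⟨e x, heT x⟩ := Subtype.ext (hκe x (heT x))
    rw [h1, MulAut.inv_apply_self]
  by_cases hPeq : P = T
  · have hTP : T ≤ P := hPeq.symm.le
    have h1 := H85.restrict_mem E hres hTP
    exact c.hEK ((H85.mem_autGroup_iff E le_rfl γ).mpr (H85.hom_congr E h1 (fun x => rfl)))
  have hρD : resAut γ P hPT ∈ E.Hom P := hres
  have hQc : E.IsCentric (resAut γ P hPT).range :=
    H85.isCentric_of_isConj E hP ⟨_, hρD, rfl⟩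
  have hQrec : E.IsReceptive (resAut γ P hPT).range :=
    Cfsg.Agent.H84.receptive_of_fc hT E c.hEsat (NREXT.fc_of_centric E hQc)
  obtain ⟨ψ, hψ, hψx⟩ := hQrec.2 P _ hρD rfl
  obtain ⟨N, hNdef⟩ : ∃ N : Subgroup Ω, N = normalizerIn T P := ⟨_, rfl⟩
  have hNT : N ≤ T := by rw [hNdef]; exact inf_le_left
  have hPN : P ≤ N := by rw [hNdef]; exact fun x hx => ⟨hPT hx, Subgroup.le_normalizer hx⟩
  haveI : Finite N := H85.finite_of_le hNT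
  haveI : Finite P := H85.finite_of_le hPT
  have hNext : N ≤ extender T P (resAut γ P hPT) := by
    intro g hg
    rw [hNdef] at hg
    refine Subgroup.subset_closure ⟨hg.1, hg.2, ((γ ⟨g, hg.1⟩ : T) : Ω), (γ ⟨g, hg.1⟩).2,
      fun x hx => ?_⟩
    rw [resAut_apply, resAut_apply]
    have e : (⟨g * (x : Ω) * g⁻¹, hPT hx⟩ : T) = ⟨g, hg.1⟩ * ⟨x, hPT x.2⟩ * ⟨g, hg.1⟩⁻¹ :=
      Subtype.ext rfl
    rw [e, map_mul, map_mul, map_inv]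
    rfl
  obtain ⟨ψ', hψ'def⟩ : ∃ ψ' : N →* Ω, ψ' = ψ.comp (Subgroup.inclusion hNext) := ⟨_, rfl⟩
  have hψ' : ψ' ∈ E.Hom N := by rw [hψ'def]; exact H85.restrict_mem E hψ hNext
  have hψ'T : ∀ x, ψ' x ∈ T := (E.le_of_mem hψ').2
  -- ψ' and γ agree on P
  have hagree : ∀ x : P, (⟨ψ' ⟨x, hPN x.2⟩, hψ'T _⟩ : T) = γ ⟨x, hPT x.2⟩ := by
    intro x
    apply Subtype.ext
    show ψ' ⟨x, hPN x.2⟩ = _
    rw [hψ'def]
    show ψ ⟨x, hNext (hPN x.2)⟩ = _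
    rw [hψx x x.2 (hNext (hPN x.2))]
    rfl
  -- the key structure statement
  have hkey : ∀ g : N, ∃ z : N, (z : Ω) ∈ P ∧
      (⟨ψ' g, hψ'T g⟩ : T) = γ (⟨g, hNT g.2⟩ * ⟨z, hNT z.2⟩) := by
    intro g
    obtain ⟨c₀, hcdef⟩ : ∃ c₀ : T, c₀ = (γ ⟨g, hNT g.2⟩)⁻¹ * ⟨ψ' g, hψ'T g⟩ := ⟨_, rfl⟩
    have hcomm : ∀ x : N, (x : Ω) ∈ P → (c₀ : Ω) * ψ' x = ψ' x * (c₀ : Ω) := by
      intro x hx
      have hgN : (g : Ω) ∈ normalizerIn T P := by rw [← hNdef]; exact g.2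
      have hconjP : (g : Ω) * x * (g : Ω)⁻¹ ∈ P :=
        (Subgroup.mem_normalizer_iff.mp hgN.2 x).mp hx
      have e1 := hagree ⟨x, hx⟩
      have e2 := hagree ⟨(g : Ω) * x * (g : Ω)⁻¹, hconjP⟩
      have e3 : (⟨(g : Ω) * x * (g : Ω)⁻¹, hPN hconjP⟩ : N) = g * x * g⁻¹ := Subtype.ext rfl
      have e4 : (⟨ψ' (g * x * g⁻¹), hψ'T _⟩ : T) =
          ⟨ψ' g, hψ'T g⟩ * ⟨ψ' x, hψ'T x⟩ * ⟨ψ' g, hψ'T g⟩⁻¹ := by
        apply Subtype.ext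
        simp [map_mul, map_inv]
      have e5 : (⟨(g : Ω) * x * (g : Ω)⁻¹, hPT hconjP⟩ : T) =
          ⟨g, hNT g.2⟩ * ⟨x, hPT hx⟩ * ⟨g, hNT g.2⟩⁻¹ := Subtype.ext rfl
      have e6 : (⟨ψ' g, hψ'T g⟩ : T) * ⟨ψ' x, hψ'T x⟩ * ⟨ψ' g, hψ'T g⟩⁻¹ =
          γ ⟨g, hNT g.2⟩ * ⟨ψ' x, hψ'T x⟩ * (γ ⟨g, hNT g.2⟩)⁻¹ := by
        rw [← e4]
        have : (⟨ψ' (g * x * g⁻¹), hψ'T _⟩ : T) =
            ⟨ψ' ⟨(g : Ω) * x * (g : Ω)⁻¹, hPN hconjP⟩, hψ'T _⟩ := by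
          apply Subtype.ext
          show ψ' (g * x * g⁻¹) = ψ' ⟨(g : Ω) * x * (g : Ω)⁻¹, hPN hconjP⟩
          rw [e3]
        rw [this, e2, e5, map_mul, map_mul, map_inv]
        have e1' : γ ⟨x, hPT hx⟩ = ⟨ψ' x, hψ'T x⟩ := e1.symm
        rw [e1']
      have e7 : c₀ * ⟨ψ' x, hψ'T x⟩ = ⟨ψ' x, hψ'T x⟩ * c₀ := by
        rw [hcdef]
        have : (⟨ψ' g, hψ'T g⟩ : T) * ⟨ψ' x, hψ'T x⟩ =
            γ ⟨g, hNT g.2⟩ * ⟨ψ' x, hψ'T x⟩ * (γ ⟨g, hNT g.2⟩)⁻¹ * ⟨ψ' g, hψ'T g⟩ := by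
          rw [← e6]; group
        calc (γ ⟨g, hNT g.2⟩)⁻¹ * ⟨ψ' g, hψ'T g⟩ * ⟨ψ' x, hψ'T x⟩
            = (γ ⟨g, hNT g.2⟩)⁻¹ * ((⟨ψ' g, hψ'T g⟩ : T) * ⟨ψ' x, hψ'T x⟩) := by group
          _ = _ := by rw [this]; group
      exact congrArg (fun t : T => (t : Ω)) e7
    obtain ⟨z, hzP, hz⟩ := Helper88.Centric.image_centric E hP hPN hψ' (c₀ : Ω) c₀.2 hcomm
    refine ⟨z, hzP, ?_⟩
    have e1 := hagree ⟨z, hzP⟩
    have e2 : (⟨ψ' z, hψ'T z⟩ : T) = c₀ := Subtype.ext hz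
    rw [map_mul]
    have e3 : γ ⟨z, hNT z.2⟩ = c₀ := by
      rw [← e2]; exact e1.symm
    rw [e3, hcdef]; group
  -- the automorphism μ of N
  have hmemN : ∀ g : N, ((γ⁻¹ ⟨ψ' g, hψ'T g⟩ : T) : Ω) ∈ N := by
    intro g
    obtain ⟨z, -, hz⟩ := hkey g
    rw [hz, MulAut.inv_apply_self]
    exact N.mul_mem g.2 z.2
  obtain ⟨μ₀, hμ₀⟩ : ∃ μ₀ : N →* N, ∀ g : N, ((μ₀ g : N) : Ω) = ((γ⁻¹ ⟨ψ' g, hψ'T g⟩ : T) : Ω) :=
    ⟨((T.subtype.comp ((γ⁻¹ : MulAut T).toMonoidHom.comp (ψ'.codRestrict T hψ'T)))).codRestrict N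
      hmemN, fun g => rfl⟩
  have hμ₀inj : Function.Injective μ₀ := by
    intro a b hab
    have h1 : ((γ⁻¹ ⟨ψ' a, hψ'T a⟩ : T) : Ω) = ((γ⁻¹ ⟨ψ' b, hψ'T b⟩ : T) : Ω) := by
      rw [← hμ₀ a, ← hμ₀ b, hab]
    have h2 : (⟨ψ' a, hψ'T a⟩ : T) = ⟨ψ' b, hψ'T b⟩ := (γ⁻¹).injective (Subtype.ext h1)
    exact E.injective_of_mem hψ' (congrArg (fun t : T => (t : Ω)) h2)
  obtain ⟨μ, hμ⟩ : ∃ μ : MulAut N, ∀ g : N, μ g = μ₀ g :=
    ⟨MulEquiv.ofBijective μ₀ ⟨hμ₀inj, Finite.surjective_of_injective hμ₀inj⟩, fun g => rfl⟩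
  have hμval : ∀ g : N, (⟨((μ g : N) : Ω), hNT (μ g).2⟩ : T) = γ⁻¹ ⟨ψ' g, hψ'T g⟩ := by
    intro g
    apply Subtype.ext
    rw [hμ g, hμ₀ g]
  have hrel : ∀ x : N, ψ' x = ((γ ⟨((μ x : N) : Ω), hNT (μ x).2⟩ : T) : Ω) := by
    intro x
    rw [hμval x, MulAut.apply_inv_self]
  -- μ g = g * z with z ∈ P
  have hμz : ∀ g : N, ∃ z : N, (z : Ω) ∈ P ∧ μ g = g * z := by
    intro g
    obtain ⟨z, hzP, hz⟩ := hkey g
    refine ⟨z, hzP, ?_⟩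
    apply Subtype.ext
    have h1 := hμval g
    rw [hz, MulAut.inv_apply_self] at h1
    exact congrArg (fun t : T => (t : Ω)) h1
  have hμfix : ∀ z : N, (z : Ω) ∈ P → μ z = z := by
    intro z hz
    apply Subtype.ext
    have h1 := hμval z
    have h2 := hagree ⟨z, hz⟩
    rw [h2, MulAut.inv_apply_self] at h1
    exact congrArg (fun t : T => (t : Ω)) h1
  have hμpow : ∀ (j : ℕ) (g z : N), (z : Ω) ∈ P → μ g = g * z → (μ ^ j) g = g * z ^ j := by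
    intro j
    induction j with
    | zero => intro g z _ _; simp
    | succ j ih =>
      intro g z hz hgz
      rw [pow_succ', MulAut.mul_apply, ih g z hz hgz, map_mul, map_pow, hgz, hμfix z hz,
        pow_succ', mul_assoc]
  have hμcard : μ ^ Nat.card P = 1 := by
    ext g
    obtain ⟨z, hzP, hz⟩ := hμz g
    rw [hμpow _ g z hzP hz]
    have h1 : (⟨(z : Ω), hzP⟩ : P) ^ Nat.card P = 1 := pow_card_eq_one'
    have h2 : (z : Ω) ^ Nat.card P = 1 := by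
      have h3 : (((⟨(z : Ω), hzP⟩ : P) ^ Nat.card P : P) : Ω) = ((1 : P) : Ω) :=
        congrArg (fun t : P => (t : Ω)) h1
      rw [Subgroup.coe_pow, Subgroup.coe_one] at h3
      exact h3
    simp [h2]
  obtain ⟨a, ha⟩ := (hT.to_le hPT).exists_card_eq
  have hdvd : orderOf μ ∣ p ^ a := by
    rw [← ha]; exact orderOf_dvd_of_pow_eq_one hμcard
  obtain ⟨k, -, hk⟩ := (Nat.dvd_prime_pow (Fact.out : p.Prime)).mp hdvd
  -- μ is an automorphism of F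
  have hψ'F : ψ' ∈ F.Hom N := c.hEF N hψ'
  have hrT : ψ'.range ≤ T := by rintro _ ⟨x, rfl⟩; exact hψ'T x
  have hγinv : (γ⁻¹ : MulAut T) ∈ F.autGroup T := Subgroup.inv_mem _ hγ
  have hγinvF := H85.restrict_mem F ((H85.mem_autGroup_iff F hTS γ⁻¹).mp hγinv) hrT
  have hμF : μ ∈ F.autGroup N := by
    refine (H85.mem_autGroup_iff F (hNT.trans hTS) μ).mpr ?_
    refine H85.comp_mem' F hψ'F hγinvF (fun x => ⟨x, rfl⟩) (fun x => ?_)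
    show ((μ x : N) : Ω) = ((γ⁻¹ ⟨ψ' x, _⟩ : T) : Ω)
    rw [hμ x, hμ₀ x]
  have hμI : μ ∈ c.KS.autGroup N := hPK N hNT μ hμF k hk
  have hμinv := (H85.mem_autGroup_iff c.KS hNT μ⁻¹).mp (Subgroup.inv_mem _ hμI)
  have hNc : E.IsCentric N := Helper88.Centric.isCentric_of_le E hP hPN hNT
  have hψ'KS : ψ' ∈ c.KS.Hom N := GoodA.of_mem hψ'
  have hres' : resAut γ N hNc.1 ∈ c.KS.Hom N := by
    refine H85.comp_mem' c.KS hμinv hψ'KS (fun x => (μ⁻¹ x).2) (fun x => ?_)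
    rw [resAut_apply]
    have h1 := hrel (μ⁻¹ x)
    rw [MulAut.apply_inv_self] at h1
    exact h1.symm
  have hlt : Nat.card P < Nat.card N := by
    rw [hNdef]; exact Lib.Helper87.FSSat.card_lt_card_normalizerIn hT hPT hPeq
  have hle : Nat.card N ≤ Nat.card T := Subgroup.card_le_of_le hNT
  exact IH (Nat.card T - Nat.card N) (by omega) γ hγ N hNc rfl hres'

end Cfsg.Agent.Lib.Helper87.PCW
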