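import Mathlib
import Cfsg.Prelude.Def_Local
set_option autoImplicit false
open Cfsg

/-! Extension lemma for `p`-solvability: a normal `p`-subgroup with `p`-solvable quotient. -/

namespace Cfsg.Agent.Lib.Helper87.PSolvExt

variable {G : Type*} [Group G]

/-- If `N ⊴ G` has order a power of `p` and `G ⧸ N` is `p`-solvable then so is `G`. -/
theorem isPSolvable_of_quotient (p : ℕ) (N : Subgroup G) [hN : N.Normal] (m : ℕ)
    (hc : Nat.card N = p ^ m) (h : Cfsg.IsPSolvable p (G ⧸ N)) : Cfsg.IsPSolvable p G := by
  obtain ⟨n, H, h0, hlast, hmono, hnormal, hstep⟩ := h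
  refine ⟨n + 1, fun i => Fin.cases ⊥ (fun j => (H j).comap (QuotientGroup.mk' N)) i,
    ?_, ?_, ?_, ?_, ?_⟩
  · rfl
  · have h1 : Fin.last (n + 1) = (Fin.last n).succ := rfl
    rw [h1]
    simp only [Fin.cases_succ]
    rw [hlast]
    exact Subgroup.comap_top _
  · intro i j hij
    induction i using Fin.cases with
    | zero => exact bot_le
    | succ a =>
      induction j using Fin.cases with
      | zero =>
        exfalso
        exact absurd (le_antisymm hij (Fin.zero_le _)) (Fin.succ_ne_zero a)
      | succ b =>
        simp only [Fin.cases_succ]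
        exact Subgroup.comap_mono (hmono (Fin.succ_le_succ_iff.mp hij))
  · intro i
    induction i using Fin.cases with
    | zero => exact Subgroup.normal_bot
    | succ a =>
      simp only [Fin.cases_succ]
      exact (hnormal a).comap _
  · intro i
    induction i using Fin.cases with
    | zero =>
      left
      refine ⟨m, ?_⟩
      show (⊥ : Subgroup G).relIndex ((H 0).comap (QuotientGroup.mk' N)) = p ^ m
      rw [h0, MonoidHom.comap_bot, QuotientGroup.ker_mk', Subgroup.relIndex_bot_left, hc]
    | succ a =>
      have h2 : ((H a.castSucc).comap (QuotientGroup.mk' N)).relIndex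
          ((H a.succ).comap (QuotientGroup.mk' N)) = (H a.castSucc).relIndex (H a.succ) := by
        rw [Subgroup.relIndex_comap,
          Subgroup.map_comap_eq_self_of_surjective (QuotientGroup.mk'_surjective N)]
      have h3 : (Fin.cases (motive := fun _ => Subgroup G) ⊥
          (fun j => (H j).comap (QuotientGroup.mk' N)) a.succ.castSucc) =
          (H a.castSucc).comap (QuotientGroup.mk' N) := by
        rw [← Fin.succ_castSucc]
        rfl
      have h4 : (Fin.cases (motive := fun _ => Subgroup G) ⊥
          (fun j => (H j).comap (QuotientGroup.mk' N)) a.succ.succ) =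
          (H a.succ).comap (QuotientGroup.mk' N) := rfl
      show (∃ m : ℕ, (Fin.cases (motive := fun _ => Subgroup G) ⊥
          (fun j => (H j).comap (QuotientGroup.mk' N)) a.succ.castSucc).relIndex
          (Fin.cases (motive := fun _ => Subgroup G) ⊥
          (fun j => (H j).comap (QuotientGroup.mk' N)) a.succ.succ) = p ^ m) ∨
          ((Fin.cases (motive := fun _ => Subgroup G) ⊥
          (fun j => (H j).comap (QuotientGroup.mk' N)) a.succ.castSucc).relIndex
          (Fin.cases (motive := fun _ => Subgroup G) ⊥
          (fun j => (H j).comap (QuotientGroup.mk' N)) a.succ.succ)).Coprime p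
      rw [h3, h4, h2]
      exact hstep a

end Cfsg.Agent.Lib.Helper87.PSolvExt
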