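import Mathlib
import Cfsg.Agent.Lib.Helper6.Pq1

set_option autoImplicit false

/-! Pieces NT1..NT5 of S5890: numerical comparison of the lists of maximal subgroups of
`PGL(2, q)` and `PSL(2, q)`. -/

namespace Cfsg.Agent.Lib.Helper87.PqNT

open Cfsg.Agent.Lib.Helper6.Pq1

section Arith

theorem q_cases {q : ℕ} (hodd : Odd q) (h5 : 5 ≤ q) (h7 : q ≠ 7) (h9 : q ≠ 9) (h11 : q ≠ 11) :
    q = 5 ∨ 13 ≤ q := by
  obtain ⟨k, hk⟩ := hodd
  omega

theorem ze_bound {q q₁ s z : ℕ} (hs : s.Prime) (hso : Odd s) (hq : q = q₁ ^ s)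
    (hz : 2 * z = q₁ * (q₁ ^ 2 - 1)) (hq5 : 5 ≤ q) : 2 * z < q := by
  have hs3 : 3 ≤ s := by
    have := hs.two_le
    obtain ⟨k, hk⟩ := hso
    omega
  have hq1 : 2 ≤ q₁ := by
    by_contra h
    have h01 : q₁ = 0 ∨ q₁ = 1 := by omega
    rcases h01 with h | h
    · rw [h, zero_pow (by omega)] at hq; omega
    · rw [h, one_pow] at hq; omega
  have h1 : q₁ ^ 3 ≤ q₁ ^ s := Nat.pow_le_pow_right (by omega) hs3
  have h2 : q₁ * (q₁ ^ 2 - 1) < q₁ ^ 3 := by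
    have h3 : q₁ ^ 3 = q₁ * q₁ ^ 2 := by ring
    rw [h3]
    apply Nat.mul_lt_mul_of_pos_left
    · have : 0 < q₁ ^ 2 := by positivity
      omega
    · omega
  rw [hz, hq]; omega

theorem sq_sub_one (x : ℕ) (hx : 1 ≤ x) : x ^ 2 - 1 = (x - 1) * (x + 1) := by
  obtain ⟨j, rfl⟩ : ∃ j, x = j + 1 := ⟨x - 1, by omega⟩
  have h1 : (j + 1) ^ 2 = j * (j + 1 + 1) + 1 := by ring
  rw [h1, Nat.add_sub_cancel, Nat.add_sub_cancel]

theorem order_contra {G : Type*} [Group G] (g : G) (h : g ^ 2 = 1 ∨ g ^ 3 = 1 ∨ g ^ 5 = 1)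
    (ho : 6 ≤ orderOf g) : False := by
  rcases h with h | h | h
  · have := Nat.le_of_dvd (by norm_num) (orderOf_dvd_of_pow_eq_one h); omega
  · have := Nat.le_of_dvd (by norm_num) (orderOf_dvd_of_pow_eq_one h); omega
  · have := Nat.le_of_dvd (by norm_num) (orderOf_dvd_of_pow_eq_one h); omega

theorem not_sq_21 {p : ℕ} (hp : p.Prime) (h : 21 = p ∨ 21 = p ^ 2) : False := by
  rcases h with h | h
  · rw [← h] at hp; norm_num at hp
  · have h5 : p ≤ 4 := by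
      by_contra hc
      have : 5 ^ 2 ≤ p ^ 2 := Nat.pow_le_pow_left (by omega) 2
      omega
    interval_cases p <;> omega

end Arith

variable {G : Type*} [Group G] [Finite G]

theorem nt1 (q p : ℕ) (hp : p.Prime) (hq : ∃ n, q = p ^ n)
    (hodd : Odd q) (h5 : 5 ≤ q) (h7 : q ≠ 7) (h9 : q ≠ 9) (h11 : q ≠ 11)
    (h40 : q.Prime → q % 40 ∉ ({11, 19, 21, 29} : Finset ℕ))
    (M₀ Z : Subgroup G) (hle : M₀ ≤ Z) (hne : Z ≠ M₀)
    (hM : 2 * Nat.card M₀ = q * (q - 1)) (hZ : ZType q p Z) : False := by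
  obtain ⟨hdvd, h2m, hm0⟩ := card_facts M₀ Z hle hne
  have hqq : q * 4 ≤ q * (q - 1) := Nat.mul_le_mul_left q (by omega)
  obtain ⟨k, hk⟩ := hodd
  unfold ZType at hZ
  rcases hZ with hZa | ⟨hZb, hZb2⟩ | ⟨q₁, hq1, hz, hgZ⟩ | ⟨q₁, s, hs, hso, hqs, hz⟩ |
    ⟨h10, hqp, hz, hgZ⟩ | ⟨hqp, h8, h10, hz, hW⟩ | ⟨hqp, h8, hz⟩
  · omega
  · rcases hZb with hZb | ⟨-, -, hZb⟩ <;> omega
  · have h3 : 3 ≤ q₁ := by
      by_contra h
      have h2 : q₁ ≤ 2 := by omega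
      have : q₁ ^ 2 ≤ 2 ^ 2 := Nat.pow_le_pow_left h2 2
      omega
    have h9' : 3 ^ 2 ≤ q₁ ^ 2 := Nat.pow_le_pow_left h3 2
    have h4 : q₁ * (q₁ ^ 2 - 1) < q₁ ^ 2 * (q₁ ^ 2 - 1) := by
      apply Nat.mul_lt_mul_of_pos_right
      · have : q₁ * 1 < q₁ * q₁ := Nat.mul_lt_mul_of_pos_left (by omega) (by omega)
        rw [pow_two]; omega
      · omega
    rw [hq1] at hM
    omega
  · have := ze_bound hs hso hqs hz h5
    omega
  · have h8 : q ≤ 8 := by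
      by_contra h
      have : 9 * 8 ≤ q * (q - 1) := Nat.mul_le_mul (by omega) (by omega)
      omega
    omega
  · omega
  · have h8' : q ≤ 5 := by
      by_contra h
      have : 6 * 5 ≤ q * (q - 1) := Nat.mul_le_mul (by omega) (by omega)
      omega
    omega

theorem nt2 (q p : ℕ) (hp : p.Prime) (hq : ∃ n, q = p ^ n)
    (hodd : Odd q) (h5 : 5 ≤ q) (h7 : q ≠ 7) (h9 : q ≠ 9) (h11 : q ≠ 11)
    (h40 : q.Prime → q % 40 ∉ ({11, 19, 21, 29} : Finset ℕ))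
    (M₀ Z : Subgroup G) (hle : M₀ ≤ Z) (hne : Z ≠ M₀)
    (hM : q ≠ 5 ∧ Nat.card M₀ = q - 1 ∧ ∃ g ∈ M₀, 2 * orderOf g = q - 1)
    (hZ : ZType q p Z) : False := by
  obtain ⟨hq5, hm, g, hg, hgo⟩ := hM
  obtain ⟨hdvd, h2m, hm0⟩ := card_facts M₀ Z hle hne
  have h13 : 13 ≤ q := (q_cases hodd h5 h7 h9 h11).resolve_left hq5
  obtain ⟨k, hk⟩ := hodd
  unfold ZType at hZ
  rcases hZ with hZa | ⟨hZb, hZb2⟩ | ⟨q₁, hq1, hz, hgZ⟩ | ⟨q₁, s, hs, hso, hqs, hz⟩ |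
    ⟨h10, hqp, hz, hgZ⟩ | ⟨hqp, h8, h10, hz, hW⟩ | ⟨hqp, h8, hz⟩
  · obtain ⟨c, hc⟩ := hdvd
    rw [hc, hm] at hZa
    have h1 : (q - 1) * (2 * c) = (q - 1) * q := by rw [Nat.mul_comm (q - 1) q, ← hZa]; ring
    have h2 : 2 * c = q := Nat.eq_of_mul_eq_mul_left (by omega) h1
    omega
  · rcases hZb with hZb | ⟨-, -, hZb⟩ <;> omega
  · have hgZ' := hgZ g (hle hg)
    have h4 : 4 ≤ q₁ := by
      by_contra h
      have h3 : q₁ ≤ 3 := by omega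
      have : q₁ ^ 2 ≤ 3 ^ 2 := Nat.pow_le_pow_left h3 2
      omega
    have hqq : q - 1 = (q₁ - 1) * (q₁ + 1) := by
      rw [hq1]; exact sq_sub_one q₁ (by omega)
    rcases hgZ' with h | h | h
    · have hd := orderOf_dvd_of_pow_eq_one h
      have hle1 := Nat.le_of_dvd (by omega) hd
      have h6 : (q₁ - 1) * (q₁ + 1) ≤ (q₁ - 1) * 2 := by rw [← hqq, ← hgo]; omega
      have := Nat.le_of_mul_le_mul_left h6 (by omega)
      omega
    · have hd := orderOf_dvd_of_pow_eq_one h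
      have hle1 := Nat.le_of_dvd (by omega) hd
      have h6 : (q₁ - 1) * (q₁ + 1) ≤ 2 * (q₁ + 1) := by rw [← hqq, ← hgo]; omega
      have := Nat.le_of_mul_le_mul_right h6 (by omega)
      omega
    · have hd := orderOf_dvd_of_pow_eq_one h
      rcases (Nat.dvd_prime hp).mp hd with h1 | h1
      · omega
      · obtain ⟨n, hn⟩ := hq
        have hn0 : n ≠ 0 := by rintro rfl; rw [pow_zero] at hn; omega
        have hpq : p ∣ q := by rw [hn]; exact dvd_pow_self p hn0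
        have h2 : q = 2 * p + 1 := by omega
        rw [h2] at hpq
        have h3 : p ∣ 1 := (Nat.dvd_add_right (Dvd.intro_left 2 rfl)).mp hpq
        have := Nat.le_of_dvd Nat.one_pos h3
        have := hp.two_le
        omega
  · have := ze_bound hs hso hqs hz h5
    omega
  · rw [hz, hm] at hdvd h2m
    obtain ⟨c, hc⟩ := hdvd
    have hc5 : c ≤ 5 := by
      by_contra hcon
      have : 12 * 6 ≤ (q - 1) * c := Nat.mul_le_mul (by omega) (by omega)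
      omega
    have hcases : q = 21 ∨ q = 31 := by
      interval_cases c <;> omega
    rcases hcases with h | h
    · rw [h] at hqp; exact not_sq_21 hp hqp
    · exact order_contra g (hgZ g (hle hg)) (by omega)
  · omega
  · omega

theorem nt3 (q p : ℕ) (hp : p.Prime) (hq : ∃ n, q = p ^ n)
    (hodd : Odd q) (h5 : 5 ≤ q) (h7 : q ≠ 7) (h9 : q ≠ 9) (h11 : q ≠ 11)
    (h40 : q.Prime → q % 40 ∉ ({11, 19, 21, 29} : Finset ℕ))
    (M₀ Z : Subgroup G) (hle : M₀ ≤ Z) (hne : Z ≠ M₀)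
    (hM : Nat.card M₀ = q + 1 ∧ ∃ g ∈ M₀, 2 * orderOf g = q + 1)
    (hZ : ZType q p Z) : False := by
  obtain ⟨hm, g, hg, hgo⟩ := hM
  obtain ⟨hdvd, h2m, hm0⟩ := card_facts M₀ Z hle hne
  obtain ⟨k, hk⟩ := hodd
  unfold ZType at hZ
  rcases hZ with hZa | ⟨hZb, hZb2⟩ | ⟨q₁, hq1, hz, hgZ⟩ | ⟨q₁, s, hs, hso, hqs, hz⟩ |
    ⟨h10, hqp, hz, hgZ⟩ | ⟨hqp, h8, h10, hz, hW⟩ | ⟨hqp, h8, hz⟩
  · rw [hm] at hdvd
    have h1 : q + 1 ∣ q * (q - 1) := by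
      rw [← hZa]; exact Dvd.dvd.mul_left hdvd 2
    have h2 : q * (q - 1) = (q + 1) * (q - 2) + 2 := by
      obtain ⟨j, rfl⟩ : ∃ j, q = j + 2 := ⟨q - 2, by omega⟩
      have e1 : j + 2 - 1 = j + 1 := by omega
      have e2 : j + 2 - 2 = j := by omega
      rw [e1, e2]; ring
    rw [h2] at h1
    have h3 : q + 1 ∣ 2 := (Nat.dvd_add_right (dvd_mul_right _ _)).mp h1
    have := Nat.le_of_dvd (by norm_num) h3
    omega
  · rcases hZb with hZb | ⟨-, -, hZb⟩ <;> omega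
  · rw [hm, hz, hq1] at hdvd
    have h3 : 3 ≤ q₁ := by
      by_contra h
      have h2 : q₁ ≤ 2 := by omega
      have : q₁ ^ 2 ≤ 2 ^ 2 := Nat.pow_le_pow_left h2 2
      omega
    have h1 : 1 ≤ q₁ ^ 2 := Nat.one_le_pow _ _ (by omega)
    have hid : q₁ * (q₁ ^ 2 - 1) + 2 * q₁ = (q₁ ^ 2 + 1) * q₁ := by
      have e1 : q₁ ^ 2 - 1 + 2 = q₁ ^ 2 + 1 := by omega
      calc q₁ * (q₁ ^ 2 - 1) + 2 * q₁ = q₁ * (q₁ ^ 2 - 1 + 2) := by ring
        _ = (q₁ ^ 2 + 1) * q₁ := by rw [e1]; ring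
    have h4 : q₁ ^ 2 + 1 ∣ 2 * q₁ :=
      (Nat.dvd_add_right hdvd).mp (by rw [hid]; exact dvd_mul_right _ _)
    have h5' := Nat.le_of_dvd (by omega) h4
    have h6 : q₁ * 3 ≤ q₁ * q₁ := Nat.mul_le_mul_left q₁ h3
    rw [pow_two] at h5'
    omega
  · have := ze_bound hs hso hqs hz h5
    omega
  · rw [hz, hm] at hdvd h2m
    obtain ⟨c, hc⟩ := hdvd
    have hc5 : c ≤ 10 := by
      by_contra hcon
      have : 6 * 11 ≤ (q + 1) * c := Nat.mul_le_mul (by omega) (by omega)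
      omega
    have hcases : q = 19 ∨ q = 29 := by
      interval_cases c <;> omega
    exact order_contra g (hgZ g (hle hg)) (by omega)
  · rw [hz, hm] at h2m
    have h6 : q = 5 := by omega
    exact hW M₀ hle (by rw [hm, h6])
  · rw [hz, hm] at h2m
    omega

theorem nt4 (q p : ℕ) (hp : p.Prime) (hq : ∃ n, q = p ^ n)
    (hodd : Odd q) (h5 : 5 ≤ q) (h7 : q ≠ 7) (h9 : q ≠ 9) (h11 : q ≠ 11)
    (h40 : q.Prime → q % 40 ∉ ({11, 19, 21, 29} : Finset ℕ))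
    (M₀ Z : Subgroup G) (hle : M₀ ≤ Z) (hne : Z ≠ M₀)
    (hM : q.Prime ∧ (q % 8 = 3 ∨ q % 8 = 5) ∧ Nat.card M₀ = 12 ∧
      ∃ a ∈ M₀, ∃ b ∈ M₀, a ^ 2 * b ^ 2 ≠ b ^ 2 * a ^ 2)
    (hZ : ZType q p Z) : False := by
  obtain ⟨hqpr, hq8, hm, a, ha, b, hb, hab⟩ := hM
  obtain ⟨hdvd, h2m, hm0⟩ := card_facts M₀ Z hle hne
  unfold ZType at hZ
  rcases hZ with hZa | ⟨hZb, hZb2⟩ | ⟨q₁, hq1, hz, hgZ⟩ | ⟨q₁, s, hs, hso, hqs, hz⟩ |
    ⟨h10, hqp, hz, hgZ⟩ | ⟨hqp, h8, h10, hz, hW⟩ | ⟨hqp, h8, hz⟩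
  · rw [hm] at hdvd
    obtain ⟨c, hc⟩ := hdvd
    have h1 : (q * (q - 1)) % 8 = 0 := by rw [← hZa, hc]; omega
    rw [Nat.mul_mod] at h1
    rcases hq8 with h | h
    · have h2 : (q - 1) % 8 = 2 := by omega
      rw [h, h2] at h1; norm_num at h1
    · have h2 : (q - 1) % 8 = 4 := by omega
      rw [h, h2] at h1; norm_num at h1
  · exact hab (hZb2 a (hle ha) b (hle hb))
  · have := ((Nat.Prime.pow_eq_iff hqpr).mp hq1.symm).2
    omega
  · have := ((Nat.Prime.pow_eq_iff hqpr).mp hqs.symm).2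
    have := hs.one_lt
    omega
  · have h := h40 hqpr
    simp only [Finset.mem_insert, Finset.mem_singleton, not_or] at h
    omega
  · omega
  · omega

theorem pow_dvd_pow_sub {p x y : ℕ} (hp : 2 ≤ p) (hx : 0 < x)
    (h : p ^ x - 1 ∣ p ^ y - 1) : x ∣ y := by
  have h1 : Nat.gcd (p ^ x - 1) (p ^ y - 1) = p ^ x - 1 := Nat.gcd_eq_left h
  rw [Nat.pow_sub_one_gcd_pow_sub_one] at h1
  have h2 : 1 ≤ p ^ Nat.gcd x y := Nat.one_le_pow _ _ (by omega)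
  have h3 : 1 ≤ p ^ x := Nat.one_le_pow _ _ (by omega)
  have h4 : p ^ Nat.gcd x y = p ^ x := by omega
  have h5 : Nat.gcd x y = x := Nat.pow_right_injective hp h4
  rw [← h5]
  exact Nat.gcd_dvd_right x y

theorem nt5 (q p : ℕ) (hp : p.Prime) (hq : ∃ n, q = p ^ n)
    (hodd : Odd q) (h5 : 5 ≤ q) (h7 : q ≠ 7) (h9 : q ≠ 9) (h11 : q ≠ 11)
    (h40 : q.Prime → q % 40 ∉ ({11, 19, 21, 29} : Finset ℕ))
    (M₀ Z : Subgroup G) (hle : M₀ ≤ Z) (hne : Z ≠ M₀)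
    (hM : ∃ q₀ r : ℕ, r.Prime ∧ Odd r ∧ q = q₀ ^ r ∧ 2 * Nat.card M₀ = q₀ * (q₀ ^ 2 - 1))
    (hZ : ZType q p Z) : False := by
  obtain ⟨q₀, r, hr, hro, hqr, hm⟩ := hM
  obtain ⟨hdvd, h2m, hm0⟩ := card_facts M₀ Z hle hne
  have hr3 : 3 ≤ r := by
    have := hr.two_le
    obtain ⟨k, hk⟩ := hro
    omega
  have hq0 : 3 ≤ q₀ := by
    by_contra h
    have h012 : q₀ = 0 ∨ q₀ = 1 ∨ q₀ = 2 := by omega
    rcases h012 with h | h | h
    · rw [h, zero_pow (by omega)] at hqr; omega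
    · rw [h, one_pow] at hqr; omega
    · rw [h] at hqr
      have : Even q := by rw [hqr]; exact (Nat.even_pow.mpr ⟨even_two, by omega⟩)
      exact (Nat.not_even_iff_odd.mpr hodd) this
  have key1 : q₀ + 1 ∣ q + 1 := by
    have := hro.nat_add_dvd_pow_add_pow q₀ 1
    rwa [one_pow, ← hqr] at this
  have hcop0 : Nat.Coprime (q₀ + 1) q₀ := by
    rw [Nat.coprime_self_add_left]; exact Nat.coprime_one_left q₀
  have key2 : Nat.Coprime (q₀ + 1) q := by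
    rw [hqr]; exact Nat.Coprime.pow_right r hcop0
  have hq0q : q₀ ∣ q := by rw [hqr]; exact dvd_pow_self q₀ (by omega)
  have hsq : q₀ ^ 2 - 1 = (q₀ - 1) * (q₀ + 1) := sq_sub_one q₀ (by omega)
  have hd1 : q₀ + 1 ∣ 2 * Nat.card Z := by
    have h1 : q₀ + 1 ∣ 2 * Nat.card M₀ := by
      rw [hm, hsq]; exact Dvd.dvd.mul_left (dvd_mul_left _ _) _
    exact h1.trans (Nat.mul_dvd_mul_left 2 hdvd)
  have hd0 : q₀ ∣ 2 * Nat.card Z := by
    have h1 : q₀ ∣ 2 * Nat.card M₀ := by rw [hm]; exact dvd_mul_right _ _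
    exact h1.trans (Nat.mul_dvd_mul_left 2 hdvd)
  have hnotpr : ¬ q.Prime := by
    intro hqpr
    have := ((Nat.Prime.pow_eq_iff hqpr).mp hqr.symm).2
    omega
  unfold ZType at hZ
  rcases hZ with hZa | ⟨hZb, hZb2⟩ | ⟨q₁, hq1, hz, hgZ⟩ | ⟨q₁, s, hs, hso, hqs, hz⟩ |
    ⟨h10, hqp, hz, hgZ⟩ | ⟨hqp, h8, h10, hz, hW⟩ | ⟨hqp, h8, hz⟩
  · rw [hZa] at hd1
    have h1 : q₀ + 1 ∣ q - 1 := key2.dvd_of_dvd_mul_left hd1
    have h2 : q₀ + 1 ∣ (q + 1) - (q - 1) := Nat.dvd_sub key1 h1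
    have h3 : (q + 1) - (q - 1) = 2 := by omega
    rw [h3] at h2
    have := Nat.le_of_dvd (by norm_num) h2
    omega
  · have h2q : q₀ ∣ 2 * q := Dvd.dvd.mul_left hq0q 2
    have h2 : q₀ ∣ 2 := by
      rcases hZb with hZb | ⟨-, -, hZb⟩
      · rw [hZb] at hd0
        have := Nat.dvd_sub h2q hd0
        have e : 2 * q - 2 * (q - 1) = 2 := by omega
        rwa [e] at this
      · rw [hZb] at hd0
        have := Nat.dvd_sub hd0 h2q
        have e : 2 * (q + 1) - 2 * q = 2 := by omega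
        rwa [e] at this
    have := Nat.le_of_dvd (by norm_num) h2
    omega
  · have hq1d : q₁ ∣ q := by rw [hq1]; exact dvd_pow_self q₁ (by norm_num)
    have hcop1 : Nat.Coprime (q₀ + 1) q₁ := Nat.Coprime.coprime_dvd_right hq1d key2
    rw [hz, ← hq1] at hd1
    have h1 : q₀ + 1 ∣ q₁ * (2 * (q - 1)) := by
      have e : 2 * (q₁ * (q - 1)) = q₁ * (2 * (q - 1)) := by ring
      rwa [e] at hd1
    have h2 : q₀ + 1 ∣ 2 * (q - 1) := hcop1.dvd_of_dvd_mul_left h1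
    have h3 : q₀ + 1 ∣ 2 * (q + 1) := Dvd.dvd.mul_left key1 2
    have h4 : q₀ + 1 ∣ 2 * (q + 1) - 2 * (q - 1) := Nat.dvd_sub h3 h2
    have e : 2 * (q + 1) - 2 * (q - 1) = 4 := by omega
    rw [e] at h4
    have h5' := Nat.le_of_dvd (by norm_num) h4
    have hq03 : q₀ = 3 := by omega
    rw [hq03] at hqr
    rw [hqr] at hq1d
    obtain ⟨j, -, hj⟩ := (Nat.dvd_prime_pow Nat.prime_three).mp hq1d
    rw [hj, ← pow_mul] at hq1
    have h6 : r = j * 2 := Nat.pow_right_injective (by norm_num : 2 ≤ 3) (hqr.symm.trans hq1)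
    obtain ⟨k, hk⟩ := hro
    omega
  · obtain ⟨n, hn⟩ := hq
    have hq1d : q₁ ∣ q := by rw [hqs]; exact dvd_pow_self q₁ hs.pos.ne'
    obtain ⟨a, -, ha⟩ := (Nat.dvd_prime_pow hp).mp (hn ▸ hq0q)
    obtain ⟨b, -, hb⟩ := (Nat.dvd_prime_pow hp).mp (hn ▸ hq1d)
    have hp2 := hp.two_le
    have ha0 : 0 < a := by
      rcases Nat.eq_zero_or_pos a with h | h
      · rw [h, pow_zero] at ha; omega
      · exact h
    have hars : a * r = b * s := by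
      apply Nat.pow_right_injective hp2
      show p ^ (a * r) = p ^ (b * s)
      rw [pow_mul, pow_mul, ← ha, ← hb, ← hqr, ← hqs]
    -- `q₀² - 1 ∣ q₁ (q₁² - 1)`
    have h1 : q₀ ^ 2 - 1 ∣ q₁ * (q₁ ^ 2 - 1) := by
      rw [← hz]
      have h2 : q₀ ^ 2 - 1 ∣ 2 * Nat.card M₀ := by rw [hm]; exact dvd_mul_left _ _
      exact h2.trans (Nat.mul_dvd_mul_left 2 hdvd)
    have hcop : Nat.Coprime (q₀ ^ 2 - 1) q₁ := by
      rw [hb]
      apply Nat.Coprime.pow_right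
      apply Nat.Coprime.symm
      rw [Nat.Prime.coprime_iff_not_dvd hp]
      intro hd
      have h3 : p ∣ q₀ ^ 2 := by rw [ha]; exact Dvd.dvd.pow (dvd_pow_self p ha0.ne') (by norm_num)
      have h4 : 1 ≤ q₀ ^ 2 := Nat.one_le_pow _ _ (by omega)
      have h5' : p ∣ q₀ ^ 2 - (q₀ ^ 2 - 1) := Nat.dvd_sub h3 hd
      have e : q₀ ^ 2 - (q₀ ^ 2 - 1) = 1 := by omega
      rw [e] at h5'
      have := Nat.le_of_dvd Nat.one_pos h5'
      omega
    have h2 : q₀ ^ 2 - 1 ∣ q₁ ^ 2 - 1 := hcop.dvd_of_dvd_mul_left h1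
    rw [ha, hb, ← pow_mul, ← pow_mul] at h2
    have h3 : a * 2 ∣ b * 2 := pow_dvd_pow_sub hp2 (by omega) h2
    have h4 : a ∣ b := (Nat.mul_dvd_mul_iff_right (by norm_num)).mp h3
    obtain ⟨c, hc⟩ := h4
    have h5' : r = c * s := by
      have : a * r = a * (c * s) := by rw [hars, hc]; ring
      exact Nat.eq_of_mul_eq_mul_left ha0 this
    have hsr : s = r := by
      rcases (Nat.dvd_prime hr).mp (Dvd.intro_left c h5'.symm) with h | h
      · exact absurd h hs.one_lt.ne'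
      · exact h
    have hab : a = b := by
      rw [hsr] at hars
      exact Nat.eq_of_mul_eq_mul_right hr.pos hars
    have hq01 : q₀ = q₁ := by rw [ha, hb, hab]
    rw [hq01, ← hz] at hm
    omega
  · rcases hqp with h | h
    · exact hnotpr (h ▸ hp)
    · rw [h] at hq0q
      obtain ⟨j, hj2, hj⟩ := (Nat.dvd_prime_pow hp).mp hq0q
      rw [h, hj, ← pow_mul] at hqr
      have h6 : 2 = j * r := Nat.pow_right_injective hp.two_le hqr
      have h7 : r ∣ 2 := Dvd.intro_left j h6.symm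
      have := Nat.le_of_dvd (by norm_num) h7
      omega
  · exact hnotpr (hqp ▸ hp)
  · exact hnotpr (hqp ▸ hp)

end Cfsg.Agent.Lib.Helper87.PqNT
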