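import Mathlib
import Cfsg.Agent.Lib.Helper45.S9Stmt
import Cfsg.Agent.Lib.Helper45.S8Dvd
import Cfsg.Agent.Lib.Helper20.EOCOMB
import Cfsg.Agent.Lib.Helper97.EORCMIN

/-!
# S3590 / ODDPART (second seat): the odd part of the order of an isometry in characteristic 2,
with the multiplicity of the eigenvalue `1` taken off the degree budget
-/

set_option autoImplicit false

namespace Cfsg.Agent.Lib.Helper87.S9ODDPART

open Polynomial
open Cfsg.Agent.Lib.Helper45.EOStmt Cfsg.Agent.Lib.Helper45.S8Stmt Cfsg.Agent.Lib.Helper45.S9Stmt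

universe u

/-- in characteristic 2: `(X - 1)^e ∣ X^(L * 2^c) - 1` when `e ≤ 2^c` -/
theorem pow_dvd_char2 {F : Type u} [Field F] [CharP F 2] (L c e : ℕ) (he : e ≤ 2 ^ c) :
    (X - 1 : F[X]) ^ e ∣ X ^ (L * 2 ^ c) - 1 := by
  have hp : Fact (Nat.Prime 2) := ⟨Nat.prime_two⟩
  have h1 : (X ^ (L * 2 ^ c) - 1 : F[X]) = (X ^ L - 1) ^ (2 ^ c) := by
    rw [sub_pow_char_pow, one_pow, ← pow_mul]
  rw [h1]
  have h2 : (X - 1 : F[X]) ∣ X ^ L - 1 := by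
    have := sub_dvd_pow_sub_pow (X : F[X]) 1 L
    rwa [one_pow] at this
  exact dvd_trans (pow_dvd_pow _ he) (pow_dvd_pow_of_dvd h2 _)

theorem main : ODDPART.{u} := by
  intro F _ _ _ ι _ _ J g hJ hg
  have hp : Fact (Nat.Prime 2) := ⟨Nat.prime_two⟩
  obtain ⟨hμ0, hrc, hc0, hdeg⟩ := Cfsg.Agent.Lib.Helper97.EORCMIN.main F ι J g hJ hg
  obtain ⟨μ, hμ⟩ : ∃ μ, μ = minpoly F g := ⟨_, rfl⟩
  rw [← hμ] at hμ0 hrc hc0 hdeg
  obtain ⟨ep, em, ν, hsplit, hcop1, -, hp2em, -⟩ :=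
    Cfsg.Agent.Lib.Helper20.EOCOMB.split 2 μ hμ0
  have hem : em = 0 := hp2em rfl
  subst hem
  have hrcν : RC ν := Cfsg.Agent.Lib.Helper20.EOCOMB.rc_split hμ0 hsplit hrc
  rw [pow_zero, mul_one] at hsplit
  have hν0 : ν ≠ 0 := by rintro rfl; rw [mul_zero] at hsplit; exact hμ0 hsplit
  have hνc0 : ν.coeff 0 ≠ 0 := by
    intro h
    apply hc0
    rw [hsplit, Polynomial.mul_coeff_zero, h, mul_zero]
  obtain ⟨DA, DB, ep', em', E, d, hDA, hDB, hd, hbud, -, hem', hdvd, -⟩ :=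
    Cfsg.Agent.Lib.Helper45.S8Dvd.dvd F 2 ν hν0 hrcν hνc0
  have hem0 : em' = 0 := hem' rfl
  subst hem0
  have hKK : KK (Fintype.card F) 2 DA DB ep' 0 E =
      Nat.lcm (SA (Fintype.card F) DA) (SB (Fintype.card F) DB) *
        2 ^ Nat.clog 2 (max E ep') := by
    unfold KK sgn
    simp
  rw [hKK] at hdvd
  obtain ⟨L, hL⟩ : ∃ L, L = Nat.lcm (SA (Fintype.card F) DA) (SB (Fintype.card F) DB) :=
    ⟨_, rfl⟩
  obtain ⟨c₁, hc₁⟩ : ∃ c₁, c₁ = Nat.clog 2 (max E ep') := ⟨_, rfl⟩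
  rw [← hL, ← hc₁] at hdvd
  have hν_dvd : ν ∣ X ^ (L * 2 ^ (c₁ + ep)) - 1 := by
    refine dvd_trans hdvd ?_
    have h1 : L * 2 ^ (c₁ + ep) = (L * 2 ^ c₁) * 2 ^ ep := by rw [pow_add]; ring
    rw [h1, pow_mul (X : F[X]) (L * 2 ^ c₁) (2 ^ ep)]
    have := sub_dvd_pow_sub_pow ((X : F[X]) ^ (L * 2 ^ c₁)) 1 (2 ^ ep)
    rwa [one_pow] at this
  have hpow_dvd : (X - 1 : F[X]) ^ ep ∣ X ^ (L * 2 ^ (c₁ + ep)) - 1 := by
    apply pow_dvd_char2
    calc ep ≤ 2 ^ ep := Nat.lt_two_pow_self.le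
      _ ≤ 2 ^ (c₁ + ep) := Nat.pow_le_pow_right (by norm_num) (by omega)
  have hcop : IsCoprime ((X - 1 : F[X]) ^ ep) ν := (hcop1.symm).pow_left
  have hμdvd : μ ∣ X ^ (L * 2 ^ (c₁ + ep)) - 1 := by
    rw [hsplit]
    exact hcop.mul_dvd hpow_dvd hν_dvd
  have hgpow : g ^ (L * 2 ^ (c₁ + ep)) = 1 := by
    obtain ⟨h, hh⟩ := hμdvd
    have h1 := congrArg (Polynomial.aeval g) hh
    rw [map_mul, hμ, minpoly.aeval, zero_mul] at h1
    simp only [map_sub, map_pow, Polynomial.aeval_X, map_one] at h1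
    exact sub_eq_zero.mp h1
  -- the degree bound
  have hχ0 : g.charpoly ≠ 0 := (Matrix.charpoly_monic g).ne_zero
  obtain ⟨χ₁, hχ, hnd⟩ := exists_eq_pow_rootMultiplicity_mul_and_not_dvd g.charpoly hχ0 1
  rw [C_1] at hχ hnd
  obtain ⟨a, ha⟩ : ∃ a, a = g.charpoly.rootMultiplicity 1 := ⟨_, rfl⟩
  rw [← ha] at hχ
  have hχ₁0 : χ₁ ≠ 0 := by rintro rfl; rw [mul_zero] at hχ; exact hχ0 hχ
  have hνχ : ν ∣ g.charpoly := by
    have h1 : ν ∣ μ := by rw [hsplit]; exact dvd_mul_left _ _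
    have h2 : μ ∣ g.charpoly := by rw [hμ]; exact Matrix.minpoly_dvd_charpoly g
    exact dvd_trans h1 h2
  have hνχ₁ : ν ∣ χ₁ := by
    rw [hχ] at hνχ
    exact (hcop1.pow_right).dvd_of_dvd_mul_left hνχ
  have hdegν : ν.natDegree ≤ χ₁.natDegree := Polynomial.natDegree_le_of_dvd hνχ₁ hχ₁0
  have hX1 : (X - 1 : F[X]) ≠ 0 := by
    have := X_sub_C_ne_zero (1 : F); rwa [C_1] at this
  have hX1d : (X - 1 : F[X]).natDegree = 1 := by
    have := natDegree_X_sub_C (1 : F); rwa [C_1] at this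
  have hdegχ : g.charpoly.natDegree = a + χ₁.natDegree := by
    conv_lhs => rw [hχ]
    rw [natDegree_mul (pow_ne_zero _ hX1) hχ₁0, natDegree_pow, hX1d, mul_one]
  have hcard : g.charpoly.natDegree = Fintype.card ι := Matrix.charpoly_natDegree_eq_dim g
  refine ⟨DA, DB, c₁ + ep, hDA, hDB, ?_, ?_⟩
  · rw [← ha]
    have h := hbud
    generalize 2 * d * (E - 1) = Y at h
    omega
  · rw [← hL]; exact hgpow

end Cfsg.Agent.Lib.Helper87.S9ODDPART
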