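import Mathlib
import Cfsg.Agent.Lib.Helper96.SylAltBasic

/-!
# S2221, piece ONEORB: one big orbit, the centre of `ev S` has at most one nontrivial element
-/

set_option autoImplicit false

namespace Cfsg.Agent.Lib.Helper87.SAONEORB

open Equiv Cfsg.Agent.Lib.Lead.SylTwoSym Cfsg.Agent.Lib.Helper96.SylAltStmt
  Cfsg.Agent.Lib.Helper96.SylAltBasic

theorem main : ONEORB' := by
  intro _hCARD hOSBIG hZB hZC n r hn hr S hS
  classical
  obtain ⟨U, hUinv, hUtr, hUc⟩ := hOSBIG n r (by omega) hr S hS
  have hcard : 6 ≤ Fintype.card (Fin n) := by simpa using hn
  -- (★) a central element of `ev S` fixing `U` pointwise is trivial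
  have star : ∀ x ∈ ev S, (∀ y ∈ ev S, x * y = y * x) → FixOn x U → x = 1 := by
    intro x hx hxc hfix
    have hcen : Cen S x := hZC (Fin n) S hS hcard x hx hxc
    have hzb := hZB (Fin n) S hS x (fun τ hτ => hcen τ hτ.1)
    by_contra hne
    obtain ⟨c, hc⟩ : ∃ c, x c ≠ c := by
      by_contra h
      rw [not_exists] at h
      apply hne
      apply Equiv.ext
      intro a
      have := h a
      rw [not_not] at this
      rw [this]
      rfl
    have hcU : c ∉ U := fun h => hc (hfix c h)
    rcases hzb c with h | ⟨τ, hτ, hτc, hxc'⟩
    · exact hc h
    · have hτU : τ c ∉ U := inv_compl hUinv τ hτ.1 c hcU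
      have hxτc : x (τ c) = c := by
        have := congrArg (fun f : Perm (Fin n) => f c) (hcen τ hτ.1)
        simp only [Perm.mul_apply] at this
        rw [this, hxc', isSwap_apply_apply hτ.2]
      have hτeq := swap_of_moves hτ.2 hτc
      have hxeq : x = τ := by
        apply Equiv.ext
        intro d
        by_cases hd : d ∈ U
        · rw [hfix d hd, hτeq]
          symm
          exact Equiv.swap_apply_of_ne_of_ne (fun h => hcU (h ▸ hd)) (fun h => hτU (h ▸ hd))
        · by_cases hdc : d = c
          · rw [hdc, hxc']
          · by_cases hdτ : d = τ c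
            · rw [hdτ, hxτc, isSwap_apply_apply hτ.2]
            · have hτd : τ d = d := by
                rw [hτeq]
                exact Equiv.swap_apply_of_ne_of_ne hdc hdτ
              rw [hτd]
              have hxd : x d ∉ U := by
                intro h
                have h1 := hfix (x d) h
                have h2 := x.injective h1
                rw [h2] at h
                exact hd h
              by_contra hxdd
              have n1 : c ≠ x d := by
                intro h
                rw [← hxτc] at h
                exact hdτ (x.injective h).symm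
              have n2 : τ c ≠ x d := by
                intro h
                rw [← hxc'] at h
                exact hdc (x.injective h).symm
              have h4 : ({c, τ c, d, x d} : Finset (Fin n)).card = 4 := by
                rw [Finset.card_insert_of_notMem, Finset.card_insert_of_notMem,
                  Finset.card_insert_of_notMem, Finset.card_singleton]
                · simpa using fun h : d = x d => hxdd h.symm
                · simp only [Finset.mem_insert, Finset.mem_singleton, not_or]
                  exact ⟨fun h => hdτ h.symm, n2⟩
                · simp only [Finset.mem_insert, Finset.mem_singleton, not_or]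
                  exact ⟨fun h => hτc h.symm, fun h => hdc h.symm, n1⟩
              have hsub : (({c, τ c, d, x d} : Finset (Fin n)) : Set (Fin n)) ⊆ Uᶜ := by
                intro e he
                simp only [Finset.coe_insert, Finset.coe_singleton, Set.mem_insert_iff,
                  Set.mem_singleton_iff] at he
                rcases he with rfl | rfl | rfl | rfl
                · exact hcU
                · exact hτU
                · exact hd
                · exact hxd
              have h5 := Set.ncard_le_ncard hsub (Set.toFinite _)
              rw [Set.ncard_coe_finset, h4] at h5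
              omega
      have h1 : Perm.sign x = 1 := (mem_ev.mp hx).2
      rw [hxeq, sign_of_mem_swapsIn hτ] at h1
      exact absurd h1 (by decide)
  -- a nontrivial central element of `ev S` moves every point of `U` like a transposition of `S`
  have hmv : ∀ w ∈ ev S, (∀ y ∈ ev S, w * y = y * w) → w ≠ 1 →
      ∀ a ∈ U, ∃ τ ∈ swapsIn S, τ a ≠ a ∧ w a = τ a := by
    intro w hw hwc hw1 a ha
    have hcen : Cen S w := hZC (Fin n) S hS hcard w hw hwc
    have hzb := hZB (Fin n) S hS w (fun τ hτ => hcen τ hτ.1)
    have hb : ∃ b ∈ U, w b ≠ b := by
      by_contra h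
      apply hw1
      apply star w hw hwc
      intro b hb
      by_contra hwb
      exact h ⟨b, hb, hwb⟩
    obtain ⟨b, hb, hwb⟩ := hb
    obtain ⟨s, hs, hsb⟩ := hUtr b hb a ha
    have hwa : w a ≠ a := by
      rw [← hsb]
      intro h
      have h1 := congrArg (fun f : Perm (Fin n) => f b) (hcen s hs)
      simp only [Perm.mul_apply] at h1
      rw [h] at h1
      exact hwb (s.injective h1.symm)
    rcases hzb a with h | h
    · exact absurd h hwa
    · exact h
  by_cases hex : ∃ x ∈ ev S, (∀ y ∈ ev S, x * y = y * x) ∧ x ≠ 1
  · obtain ⟨z, hz, hzc, hz1⟩ := hex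
    refine ⟨z, fun x hx hxc => ?_⟩
    by_cases hx1 : x = 1
    · exact Or.inl hx1
    · right
      have hfix : FixOn (x⁻¹ * z) U := by
        intro a ha
        obtain ⟨τ, hτ, hτa, h1⟩ := hmv x hx hxc hx1 a ha
        obtain ⟨τ', hτ', hτ'a, h2⟩ := hmv z hz hzc hz1 a ha
        have h3 := eq_of_moves hS.1 hτ hτ' hτa hτ'a
        rw [Perm.mul_apply, h2, ← h3, ← h1]
        simp
      have hmem : x⁻¹ * z ∈ ev S := (ev S).mul_mem ((ev S).inv_mem hx) hz
      have hcen' : ∀ y ∈ ev S, (x⁻¹ * z) * y = y * (x⁻¹ * z) := by
        intro y hy
        have h2 := hzc y hy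
        have h3 : x⁻¹ * y = y * x⁻¹ := (Commute.inv_left (show Commute x y from hxc y hy)).eq
        rw [mul_assoc, h2, ← mul_assoc, h3, mul_assoc]
      have h := star _ hmem hcen' hfix
      exact inv_mul_eq_one.mp h
  · refine ⟨1, fun x hx hxc => ?_⟩
    left
    by_contra h
    exact hex ⟨x, hx, hxc, h⟩

end Cfsg.Agent.Lib.Helper87.SAONEORB
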