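import Mathlib
import Cfsg.Agent.Lib.Helper96.SylAltBasic

/-!
# S2221, piece OSBIG: for `n ∈ [2^r, 2^r + 3]` a maximal 2-subgroup of `Sym(n)` has an orbit with
complement of at most three points (Sylow conjugacy with a Sylow subgroup containing a
`2^r`-cycle)
-/

set_option autoImplicit false

namespace Cfsg.Agent.Lib.Helper87.SAOSBIG

open Equiv Cfsg.Agent.Lib.Lead.SylTwoSym Cfsg.Agent.Lib.Helper96.SylAltStmt
  Cfsg.Agent.Lib.Helper96.SylAltBasic

theorem osbig : OSBIG := by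
  intro n r hn hr S hS
  classical
  have : Fact (Nat.Prime 2) := ⟨Nat.prime_two⟩
  have hN1 : 2 ^ r ≤ n := by rw [← hr]; exact Nat.mul_div_le n 4
  have hN2 : n ≤ 2 ^ r + 3 := by rw [← hr]; omega
  have hr4 : 4 ≤ 2 ^ r := by rw [← hr]; omega
  -- the `2^r`-cycle
  obtain ⟨F, -, hF⟩ := Finset.exists_subset_card_eq (s := (Finset.univ : Finset (Fin n)))
    (n := 2 ^ r) (by simpa using hN1)
  obtain ⟨σ, hσ, hσs⟩ := F.exists_cycleOn
  have hσpow : σ ^ (2 ^ r) = 1 := by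
    apply Equiv.ext
    intro a
    by_cases ha : a ∈ F
    · have := hσ.pow_card_apply ha
      rw [hF] at this
      rw [this]
      rfl
    · have h1 : σ a = a := by
        by_contra h
        exact ha (hσs (Equiv.Perm.mem_support.mpr h))
      rw [Equiv.Perm.pow_apply_eq_self_of_apply_eq_self h1]
      rfl
  have hZ : IsPGroup 2 (Subgroup.zpowers σ) := by
    rintro ⟨g, hg⟩
    refine ⟨r, ?_⟩
    obtain ⟨k, rfl⟩ := Subgroup.mem_zpowers_iff.mp hg
    apply Subtype.ext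
    simp only [Subgroup.coe_pow, Subgroup.coe_one]
    rw [← zpow_natCast, ← zpow_mul, mul_comm, zpow_mul, zpow_natCast, hσpow, one_zpow]
  obtain ⟨S₀, hS₀⟩ := hZ.exists_le_sylow
  obtain ⟨S', hS'⟩ : ∃ S' : Sylow 2 (Perm (Fin n)), (S' : Subgroup (Perm (Fin n))) = S :=
    ⟨⟨S, hS.1, fun {Q} hQ hle => hS.2 Q hQ hle⟩, rfl⟩
  obtain ⟨g, hg⟩ := MulAction.exists_smul_eq (Perm (Fin n)) S' S₀
  have hmem : ∀ t : Perm (Fin n), t ∈ (S₀ : Subgroup (Perm (Fin n))) ↔ g⁻¹ * t * g ∈ S := by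
    intro t
    rw [← hg, Sylow.coe_subgroup_smul, Subgroup.mem_pointwise_smul_iff_inv_smul_mem, hS']
    simp [MulAut.smul_def]
  obtain ⟨x₀, hx₀⟩ : F.Nonempty := by
    rw [← Finset.card_pos, hF]
    positivity
  have hsub : ∀ b ∈ F, ∃ t ∈ (S₀ : Subgroup (Perm (Fin n))), t x₀ = b := by
    intro b hb
    obtain ⟨k, -, hk⟩ := hσ.exists_pow_eq hx₀ hb
    exact ⟨σ ^ k, hS₀ (Subgroup.pow_mem _ (Subgroup.mem_zpowers σ) k), hk⟩
  have horb : ∀ b, (∃ t ∈ (S₀ : Subgroup (Perm (Fin n))), t x₀ = b) → b ∈ F := by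
    obtain ⟨k, hk⟩ := (S₀.isPGroup').card_orbit x₀
    have hFO : (F : Set (Fin n)) ⊆ MulAction.orbit ↥(S₀ : Subgroup (Perm (Fin n))) x₀ := by
      intro b hb
      obtain ⟨t, ht, htb⟩ := hsub b hb
      exact ⟨⟨t, ht⟩, htb⟩
    have hfin : (MulAction.orbit ↥(S₀ : Subgroup (Perm (Fin n))) x₀).Finite := Set.toFinite _
    have h1 : 2 ^ r ≤ 2 ^ k := by
      rw [← hk, ← hF, ← Set.ncard_coe_finset F, Nat.card_coe_set_eq]
      exact Set.ncard_le_ncard hFO hfin
    have h2 : 2 ^ k ≤ n := by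
      rw [← hk, Nat.card_coe_set_eq]
      have := Set.ncard_le_card (MulAction.orbit ↥(S₀ : Subgroup (Perm (Fin n))) x₀)
      simpa using this
    have h3 : r ≤ k := (Nat.pow_le_pow_iff_right (by norm_num)).mp h1
    have h4 : k < r + 1 := by
      apply (Nat.pow_lt_pow_iff_right (a := 2) (by norm_num)).mp
      rw [pow_succ]
      omega
    have hkr : k = r := by omega
    have heq : (F : Set (Fin n)) = MulAction.orbit ↥(S₀ : Subgroup (Perm (Fin n))) x₀ := by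
      apply Set.eq_of_subset_of_ncard_le hFO _ hfin
      rw [← Nat.card_coe_set_eq, hk, hkr, Set.ncard_coe_finset, hF]
    rintro b ⟨t, ht, rfl⟩
    have : t x₀ ∈ MulAction.orbit ↥(S₀ : Subgroup (Perm (Fin n))) x₀ := ⟨⟨t, ht⟩, rfl⟩
    rw [← heq] at this
    exact this
  refine ⟨{a | g a ∈ F}, ?_, ?_, ?_⟩
  · intro s hs a ha
    obtain ⟨t₁, ht₁, h1⟩ := hsub (g a) ha
    apply horb
    refine ⟨g * s * g⁻¹ * t₁, Subgroup.mul_mem _ ((hmem _).mpr ?_) ht₁, ?_⟩
    · have e : g⁻¹ * (g * s * g⁻¹) * g = s := by group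
      rw [e]
      exact hs
    · simp [Perm.mul_apply, h1]
  · intro a ha b hb
    obtain ⟨t₁, ht₁, h1⟩ := hsub (g a) ha
    obtain ⟨t₂, ht₂, h2⟩ := hsub (g b) hb
    refine ⟨g⁻¹ * (t₂ * t₁⁻¹) * g,
      (hmem _).mp (Subgroup.mul_mem _ ht₂ (Subgroup.inv_mem _ ht₁)), ?_⟩
    simp only [Perm.mul_apply]
    rw [← h1]
    have e1 : t₁⁻¹ (t₁ x₀) = x₀ := by simp
    rw [e1, h2]
    simp
  · have hU : {a | g a ∈ F} = (g.symm : Fin n → Fin n) '' (F : Set (Fin n)) := by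
      ext a
      simp only [Set.mem_ofPred_eq, Set.mem_image, Finset.mem_coe]
      constructor
      · intro h
        exact ⟨g a, h, by simp⟩
      · rintro ⟨b, hb, rfl⟩
        simpa using hb
    have hc : ({a | g a ∈ F} : Set (Fin n)).ncard = 2 ^ r := by
      rw [hU, Set.ncard_image_of_injective _ g.symm.injective, Set.ncard_coe_finset, hF]
    have := Set.ncard_add_ncard_compl ({a | g a ∈ F} : Set (Fin n))
    rw [hc] at this
    simp only [Nat.card_eq_fintype_card, Fintype.card_fin] at this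
    omega

theorem main : OSBIG' := fun _ => osbig

end Cfsg.Agent.Lib.Helper87.SAOSBIG
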